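import Cfsg.Agent.Eq.Def_Blocks
import Cfsg.Agent.Eq.Def_BlockRank
import Cfsg.Agent.Eq.Def_Solvable
import Cfsg.Agent.Constrained.Basic
import Cfsg.Agent.Blocks.PrincipalLinear
import Cfsg.Agent.S4667
import Cfsg.Agent.S4735
import Cfsg.Agent.S4571
import Cfsg.Agent.S4512
import Cfsg.Agent.S0215

/-!
# The rank of the principal block: odd core and centralizers with a fixed subgroup of index four
-/

set_option autoImplicit false
set_option linter.style.haveILetI false

namespace CfsgLib.Blocks.RankFourNine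

open Cfsg CfsgLib

universe u

variable {G : Type u} [Group G] [Finite G] {p : ℕ} {M : Ideal AlgInt}

open Classical in
theorem natCard_mul_blockRank_eq_sum [Fintype G] (hM : IsPModular p M) :
    (Nat.card G : ℂ) * (blockRank p (principalBlock M G) : ℂ) = ∑ x : G, if IsPRegular p x then
      ((∑ᶠ χ ∈ principalBlock M G, Complex.normSq ((χ : G → ℂ) x) : ℝ) : ℂ) else 0 := by
  haveI : Fact p.Prime := ⟨hM.1⟩
  rw [Cfsg.Agent.S4667.result p M hM _ (PrincipalLinear.isPBlock_principal M)]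
  refine Finset.sum_congr rfl fun x _ => ?_
  rw [finsum_block_eq_sum, finsum_mem_eq_finite_toFinset_sum _ (Set.toFinite _)]
  by_cases hx : IsPRegular p x
  · rw [if_pos hx, Complex.ofReal_sum]
    refine Finset.sum_congr (by ext; simp) fun χ _ => ?_
    simp only [pRegularPart, if_pos hx]
    rw [Chars.map_inv_eq_conj (Chars.isCharacter_coe χ), Complex.mul_conj]
  · rw [if_neg hx]
    exact Finset.sum_eq_zero fun χ _ => by simp [pRegularPart, hx]

/-- The principal block has the rank of the principal block modulo the `p'`-core. -/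
theorem blockRank_quotient_pPrimeCore (hM : IsPModular p M) :
    blockRank p (principalBlock M G) = blockRank p (principalBlock M (G ⧸ pPrimeCore p G)) := by
  classical
  haveI : Fact p.Prime := ⟨hM.1⟩
  haveI := Fintype.ofFinite G
  set N := pPrimeCore p G
  haveI := Fintype.ofFinite (G ⧸ N)
  haveI := Fintype.ofFinite N
  have hN : ¬ p ∣ Nat.card N := Constrained.pPrimeCore_not_dvd
  have hreg : ∀ x : G, IsPRegular p (x : G ⧸ N) ↔ IsPRegular p x := by
    intro x
    unfold IsPRegular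
    refine not_congr ⟨fun h => h.trans (orderOf_map_dvd (QuotientGroup.mk' N) x), fun h => ?_⟩
    set m := orderOf (x : G ⧸ N)
    have hm : x ^ m ∈ N := by
      rw [← QuotientGroup.eq_one_iff, QuotientGroup.mk_pow]; exact pow_orderOf_eq_one _
    have h1 : x ^ (m * Nat.card N) = 1 := by
      rw [pow_mul]
      have := congrArg Subtype.val (pow_card_eq_one' (G := N) (x := ⟨_, hm⟩))
      exact this
    exact ((Nat.Prime.dvd_mul hM.1).1 (h.trans (orderOf_dvd_of_pow_eq_one h1))).resolve_right hN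
  have hG := natCard_mul_blockRank_eq_sum (G := G) hM
  have hQ := natCard_mul_blockRank_eq_sum (G := G ⧸ N) hM
  set f : G ⧸ N → ℂ := fun y => if IsPRegular p y then
      ((∑ᶠ χ ∈ principalBlock M (G ⧸ N), Complex.normSq ((χ : G ⧸ N → ℂ) y) : ℝ) : ℂ) else 0
  have hfib : ∀ x : G, (if IsPRegular p x then
      ((∑ᶠ χ ∈ principalBlock M G, Complex.normSq ((χ : G → ℂ) x) : ℝ) : ℂ) else 0) =
      f (x : G ⧸ N) := fun x => by
    simp only [f, hreg, (Cfsg.Agent.S4735.result p M hM x).2.1]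
    rfl
  have hsum : ∑ x : G, f (x : G ⧸ N) = (Nat.card N : ℂ) * ∑ y, f y := by
    rw [Fintype.sum_equiv Subgroup.groupEquivQuotientProdSubgroup (fun x : G => f (x : G ⧸ N))
      (fun y : (G ⧸ N) × N => f y.1) (fun x => rfl), Fintype.sum_prod_type]
    simp [Finset.mul_sum, Nat.card_eq_fintype_card]
  rw [Finset.sum_congr rfl fun x _ => hfib x, hsum, ← hQ] at hG
  have hc : (Nat.card G : ℂ) = (Nat.card N : ℂ) * (Nat.card (G ⧸ N) : ℂ) := by
    rw [← Nat.cast_mul, Subgroup.card_eq_card_quotient_mul_card_subgroup N, mul_comm]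
  rw [hc, ← mul_assoc] at hG
  exact Nat.cast_injective (R := ℂ) (mul_left_cancel₀ (mul_ne_zero
    (Nat.cast_ne_zero.2 Nat.card_pos.ne') (Nat.cast_ne_zero.2 Nat.card_pos.ne')) hG)

set_option maxHeartbeats 1000000 in
/-- **Rank three.** An elementary abelian Sylow `2`-subgroup with a subgroup of index four fixed by
the normalizer, which is transitive on the nontrivial cosets. -/
theorem blockRank_eq_three (hM : IsPModular 2 M) (S : Sylow 2 G) (hel : ∀ x : S, x ^ 2 = 1)
    (V : Subgroup G) (hVS : V ≤ S) (hcard : Nat.card S = 4 * Nat.card V)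
    (hfix : ∀ n ∈ Subgroup.normalizer ((S : Subgroup G) : Set G), ∀ v ∈ V, n * v * n⁻¹ = v)
    (htrans : ∀ x ∈ (S : Subgroup G), ∀ y ∈ (S : Subgroup G), x ∉ V → y ∉ V →
      ∃ n ∈ Subgroup.normalizer ((S : Subgroup G) : Set G), (n * x * n⁻¹)⁻¹ * y ∈ V) :
    blockRank 2 (principalBlock M G) = 3 := by
  classical
  haveI : Fact (Nat.Prime 2) := ⟨Nat.prime_two⟩
  have hsq : ∀ x : G, x ∈ (S : Subgroup G) → x ^ 2 = 1 := fun x hx =>
    congrArg Subtype.val (hel ⟨x, hx⟩)
  have hcommS : IsMulCommutative (S : Subgroup G) := by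
    refine ⟨⟨fun a b => ?_⟩⟩
    have h : ∀ c : (S : Subgroup G), c * c = 1 := fun c => Subtype.ext (by
      simpa [pow_two] using hsq c c.2)
    exact (Commute.of_orderOf_dvd_two (fun c => orderOf_dvd_of_pow_eq_one (by rw [pow_two]; exact h c))
      a b)
  -- each element of `V` is central modulo the odd core
  have hiso : ∀ v ∈ V, ∀ g : G, g * v * g⁻¹ * v⁻¹ ∈ pPrimeCore 2 G := by
    intro v hv g
    by_cases hv1 : v = 1
    · simp [hv1]
    have hov : orderOf v = 2 := orderOf_eq_prime (hsq v (hVS hv)) hv1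
    obtain ⟨N, hN, hodd, hcomm⟩ := Cfsg.Agent.S0215.result S v hov (hVS hv) fun a ha => by
      obtain ⟨n, hn, e⟩ := Sylow.conj_eq_normalizer_conj_of_mem S v a⁻¹ (hVS hv) (by simpa using ha)
      rw [inv_inv] at e
      rw [e]
      simpa using hfix n⁻¹ (inv_mem hn) v hv
    have hle : N ≤ pPrimeCore 2 G := le_sSup ⟨hN, Nat.coprime_two_right.2 hodd⟩
    have h := inv_mem (hle (hcomm g))
    simpa [mul_assoc] using h
  set N := pPrimeCore 2 G with hNd
  have hN : ¬ 2 ∣ Nat.card N := Constrained.pPrimeCore_not_dvd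
  set Q : Subgroup (G ⧸ N) := V.map (QuotientGroup.mk' N) with hQd
  have hcen : ∀ q ∈ Q, ∀ y : G ⧸ N, y * q = q * y := by
    rintro _ ⟨v, hv, rfl⟩ y
    obtain ⟨g, rfl⟩ := QuotientGroup.mk'_surjective N y
    have h := (QuotientGroup.eq_one_iff _).2 (hiso v hv g)
    have e : QuotientGroup.mk' N g * QuotientGroup.mk' N v * (QuotientGroup.mk' N g)⁻¹ *
        (QuotientGroup.mk' N v)⁻¹ = 1 := h
    exact mul_inv_eq_iff_eq_mul.1 (mul_inv_eq_one.1 e)
  haveI hQn : Q.Normal := ⟨fun q hq y => by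
    rw [hcen q hq y, mul_inv_cancel_right]; exact hq⟩
  have hQp : IsPGroup 2 Q := (S.2.to_le hVS).map _
  have hsup : Q ⊔ Subgroup.centralizer (Q : Set (G ⧸ N)) = ⊤ := eq_top_iff.2 fun y _ =>
    Subgroup.mem_sup_right (Subgroup.mem_centralizer_iff.2 fun q hq => (hcen q hq y).symm)
  rw [blockRank_quotient_pPrimeCore hM, Cfsg.Agent.S4571.result 2 M hM Q hQp hsup]
  -- the Klein four group
  set π : G →* (G ⧸ N) ⧸ Q := (QuotientGroup.mk' Q).comp (QuotientGroup.mk' N) with hπd
  have hπ : Function.Surjective π :=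
    (QuotientGroup.mk'_surjective Q).comp (QuotientGroup.mk'_surjective N)
  set T := S.mapSurjective hπ
  have hT : (T : Subgroup ((G ⧸ N) ⧸ Q)) = (S : Subgroup G).map π := Sylow.coe_mapSurjective hπ S
  have hker : ∀ x ∈ (S : Subgroup G), π x = 1 ↔ x ∈ V := by
    intro x hx
    refine ⟨fun h => ?_, fun h => (QuotientGroup.eq_one_iff _).2 ⟨x, h, rfl⟩⟩
    obtain ⟨v, hv, e⟩ := (QuotientGroup.eq_one_iff _).1 (show ((x : G ⧸ N) : (G ⧸ N) ⧸ Q) = 1 from h)
    have he : v⁻¹ * x ∈ N := QuotientGroup.eq.1 e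
    have h1 : v⁻¹ * x = 1 := by
      by_contra hne
      have ho := orderOf_eq_prime (hsq _ (Subgroup.mul_mem _ (inv_mem (hVS hv)) hx)) hne
      exact hN (ho ▸ Subgroup.orderOf_dvd_natCard N he)
    exact inv_mul_eq_one.1 h1 ▸ hv
  have hT4 : Nat.card T = 4 := by
    have e1 : (π.comp (S : Subgroup G).subtype).range = (S : Subgroup G).map π := by
      rw [MonoidHom.range_comp, Subgroup.range_subtype]
    have e2 : (π.comp (S : Subgroup G).subtype).ker = V.subgroupOf (S : Subgroup G) := by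
      ext x; exact hker x x.2
    have h := Subgroup.card_mul_index (π.comp (S : Subgroup G).subtype).ker
    rw [Subgroup.index_ker, e1, e2, Nat.card_congr (Subgroup.subgroupOfEquivOfLe hVS).toEquiv, ← hT,
      hcard, mul_comm 4] at h
    exact mul_left_cancel₀ Nat.card_pos.ne' h
  refine Cfsg.Agent.S4512.result M hM T hT4 (fun x => ?_) fun s t hs ht => ?_
  · obtain ⟨a, ha, e⟩ := (hT ▸ x.2 : (x : (G ⧸ N) ⧸ Q) ∈ (S : Subgroup G).map π)
    refine Subtype.ext ?_
    show (x : (G ⧸ N) ⧸ Q) * x = 1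
    rw [← e, ← map_mul, ← pow_two, hsq a ha, map_one]
  · have hin : ∀ r : (G ⧸ N) ⧸ Q, orderOf r = 2 →
        ∃ a ∈ (S : Subgroup G), a ∉ V ∧ IsConj r (π a) := by
      intro r hr
      obtain ⟨T', hT'⟩ := (IsPGroup.of_card (n := 1) (by rw [Nat.card_zpowers, hr, pow_one] :
        Nat.card (Subgroup.zpowers r) = 2 ^ 1)).exists_le_sylow
      obtain ⟨c, hc⟩ := MulAction.exists_smul_eq ((G ⧸ N) ⧸ Q) T' T
      have hmem : c * r * c⁻¹ ∈ (T : Subgroup ((G ⧸ N) ⧸ Q)) := by
        rw [← hc]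
        exact Subgroup.smul_mem_pointwise_smul r (MulAut.conj c) _ (hT' (Subgroup.mem_zpowers r))
      rw [hT] at hmem
      obtain ⟨a, ha, e⟩ := hmem
      refine ⟨a, ha, fun hav => ?_, isConj_iff.2 ⟨c, e.symm⟩⟩
      rw [(hker a ha).2 hav] at e
      rw [conj_eq_one_iff.1 e.symm, orderOf_one] at hr
      omega
    obtain ⟨x, hx, hxV, hsx⟩ := hin s hs
    obtain ⟨y, hy, hyV, hty⟩ := hin t ht
    obtain ⟨n, hn, hv⟩ := htrans x hx y hy hxV hyV
    refine hsx.trans ((isConj_iff.2 ⟨π n, ?_⟩).trans hty.symm)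
    have h := (hker _ (hVS hv)).2 hv
    rw [map_mul, map_inv, inv_mul_eq_one] at h
    rw [← h, map_mul, map_mul, map_inv]

end CfsgLib.Blocks.RankFourNine
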