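import Cfsg.Agent.Blocks.RankFourNine.Setting
import Cfsg.Agent.Blocks.RankFourNine.Rank
import Cfsg.Agent.Blocks.KleinFour.Count
import Cfsg.Agent.Blocks.HeightZero.PrincipalSection
import Cfsg.Agent.Blocks.PrincipalPair
import Cfsg.Agent.Transfer.NormalPComplement

/-!
# Brauer's count in the four sections
-/

set_option autoImplicit false
set_option linter.style.haveILetI false

namespace CfsgLib.Blocks.RankFourNine

open Cfsg CfsgLib

universe u

variable {G : Type u} [Group G] [Finite G] {M : Ideal AlgInt} {P : Sylow 2 G}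

theorem rank_centralizer (hM : IsPModular 2 M) (hcard : Nat.card P = 16) (hel : ∀ x : P, x ^ 2 = 1)
    (a : G) (V : Subgroup G) (haP : a ∈ (P : Subgroup G)) (hV : V ≤ (P : Subgroup G))
    (hV4 : Nat.card V = 4)
    (hfix : ∀ n ∈ Subgroup.normalizer ((P : Subgroup G) : Set G), Commute n a →
      ∀ v ∈ V, n * v * n⁻¹ = v)
    (htrans : ∀ x ∈ (P : Subgroup G), ∀ y ∈ (P : Subgroup G), x ∉ V → y ∉ V →
      ∃ n ∈ Subgroup.normalizer ((P : Subgroup G) : Set G), Commute n a ∧ (n * x * n⁻¹)⁻¹ * y ∈ V) :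
    blockRank 2 (principalBlock M (Subgroup.centralizer ({a} : Set G))) = 3 := by
  classical
  haveI : Fact (Nat.Prime 2) := ⟨Nat.prime_two⟩
  set H := Subgroup.centralizer ({a} : Set G) with hH
  have hPH : (P : Subgroup G) ≤ H := fun x hx => Subgroup.mem_centralizer_singleton_iff.2
    (congrArg Subtype.val
      (Commute.of_orderOf_dvd_two (fun c : P => orderOf_dvd_of_pow_eq_one (hel c))
        (⟨x, hx⟩ : P) ⟨a, haP⟩))
  have hS : ((P.subtype hPH : Sylow 2 H) : Subgroup H) = (P : Subgroup G).subgroupOf H :=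
    Sylow.coe_subtype P hPH
  have hnorm : ∀ n : H, n ∈ Subgroup.normalizer (((P.subtype hPH : Sylow 2 H) : Subgroup H) : Set H) ↔
      (n : G) ∈ Subgroup.normalizer ((P : Subgroup G) : Set G) := by
    intro n
    rw [hS, ← Subgroup.subgroupOf_normalizer_eq hPH, Subgroup.mem_subgroupOf]
  refine blockRank_eq_three hM (P.subtype hPH) (fun x => Subtype.ext (Subtype.ext ?_))
    (V.subgroupOf H) (hS ▸ Subgroup.comap_mono hV) ?_ (fun n hn v hv => Subtype.ext ?_) ?_
  · have hx : ((x : H) : G) ∈ (P : Subgroup G) :=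
      Subgroup.mem_subgroupOf.1 (hS ▸ (x.2 : (x : H) ∈ ((P.subtype hPH : Sylow 2 H) : Subgroup H)))
    simpa using congrArg Subtype.val (hel ⟨_, hx⟩)
  · rw [hS, Nat.card_congr (Subgroup.subgroupOfEquivOfLe hPH).toEquiv,
      Nat.card_congr (Subgroup.subgroupOfEquivOfLe (hV.trans hPH)).toEquiv, hV4]
    exact hcard
  · exact hfix _ ((hnorm n).1 hn) (Subgroup.mem_centralizer_singleton_iff.1 n.2) _ hv
  · intro x hx y hy hxV hyV
    rw [hS, Subgroup.mem_subgroupOf] at hx hy
    obtain ⟨n, hn, hna, h⟩ := htrans x hx y hy hxV hyV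
    exact ⟨⟨n, Subgroup.mem_centralizer_singleton_iff.2 hna⟩, (hnorm _).2 hn, h⟩

theorem hasNormalPComplement_centralizer (S : Setting P) (hel : ∀ x : P, x ^ 2 = 1) :
    HasNormalPComplement 2 (Subgroup.centralizer ({S.a * S.b} : Set G)) := by
  classical
  haveI : Fact (Nat.Prime 2) := ⟨Nat.prime_two⟩
  set H := Subgroup.centralizer ({S.a * S.b} : Set G)
  have hPH : (P : Subgroup G) ≤ H := fun x hx => Subgroup.mem_centralizer_singleton_iff.2
    (congrArg Subtype.val
      (Commute.of_orderOf_dvd_two (fun c : P => orderOf_dvd_of_pow_eq_one (hel c))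
        (⟨x, hx⟩ : P) ⟨S.a * S.b, mul_mem S.aP S.bP⟩))
  refine Transfer.hasNormalPComplement_of_normalizer_le_centralizer (P.subtype hPH) fun n hn => ?_
  rw [← Sylow.coe_coe, Sylow.coe_subtype P hPH, ← Subgroup.subgroupOf_normalizer_eq hPH,
    Subgroup.mem_subgroupOf] at hn
  have hc := S.freeAB _ hn (Subgroup.mem_centralizer_singleton_iff.1 n.2)
  rw [Subgroup.mem_centralizer_iff] at hc ⊢
  intro x hx
  rw [← Sylow.coe_coe, Sylow.coe_subtype P hPH] at hx
  exact Subtype.ext (hc _ hx)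

theorem finsum_rank_principal (hM : IsPModular 2 M) {u : G} (hu : ∃ k : ℕ, orderOf u = 2 ^ k) :
    (∑ᶠ b ∈ {b : Set (IrrCharacter (Subgroup.centralizer ({u} : Set G))) |
      IsInducedBlock M (Subgroup.centralizer ({u} : Set G)) b (principalBlock M G)},
        blockRank 2 b : ℕ) =
      blockRank 2 (principalBlock M (Subgroup.centralizer ({u} : Set G))) := by
  have := isMaximal_of_isPModular hM
  haveI := Fintype.ofFinite G
  have hset : {b : Set (IrrCharacter (Subgroup.centralizer ({u} : Set G))) |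
      IsInducedBlock M (Subgroup.centralizer ({u} : Set G)) b (principalBlock M G)} =
      {principalBlock M (Subgroup.centralizer ({u} : Set G))} := by
    ext b
    refine ⟨fun h => (HeightZero.isInducedBlock_principal_iff hM hu h.1).1 h, fun h => ?_⟩
    rw [Set.mem_singleton_iff.1 h]
    exact (HeightZero.isInducedBlock_principal_iff hM hu (PrincipalLinear.isPBlock_principal M)).2 rfl
  rw [hset]
  exact finsum_mem_singleton

namespace Setting

omit [Finite G] in
theorem not_mem (S : Setting P) : S.a ∉ S.Vb ∧ S.b ∉ S.Va ∧ S.a * S.b ∉ S.Va ∧ S.a * S.b ∉ S.Vb := by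
  have key : ∀ x : G, x ∈ S.Va → x ∈ S.Vb → x = 1 := fun x h1 h2 => by
    have : x ∈ S.Va ⊓ S.Vb := ⟨h1, h2⟩
    rw [S.inf, Subgroup.mem_bot] at this
    exact this
  have ha : S.a ∉ S.Vb := fun h => by
    have := S.oa
    rw [key _ S.aVa h, orderOf_one] at this
    omega
  have hb : S.b ∉ S.Va := fun h => by
    have := S.ob
    rw [key _ h S.bVb, orderOf_one] at this
    omega
  exact ⟨ha, hb, fun h => hb ((Subgroup.mul_mem_cancel_left _ S.aVa).1 h),
    fun h => ha ((Subgroup.mul_mem_cancel_right _ S.bVb).1 h)⟩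

/-- The four representatives. -/
theorem exists_unique_rep [DecidableEq G] (S : Setting P) (g : G) (hg : ∃ k : ℕ, orderOf g = 2 ^ k) :
    ∃! x, x ∈ ({1, S.a, S.b, S.a * S.b} : Finset G) ∧ IsConj g x := by
  haveI : Fact (Nat.Prime 2) := ⟨Nat.prime_two⟩
  obtain ⟨k, hk⟩ := hg
  obtain ⟨Q, hQ⟩ := (IsPGroup.of_card (n := k) (by rw [Nat.card_zpowers, hk] :
    Nat.card (Subgroup.zpowers g) = 2 ^ k)).exists_le_sylow
  obtain ⟨c, hc⟩ := MulAction.exists_smul_eq G Q P
  have hmem : c * g * c⁻¹ ∈ (P : Subgroup G) := by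
    rw [← hc]
    exact Subgroup.smul_mem_pointwise_smul g (MulAut.conj c) _ (hQ (Subgroup.mem_zpowers g))
  have hgx : IsConj g (c * g * c⁻¹) := isConj_iff.2 ⟨c, rfl⟩
  obtain ⟨ha, hb, habA, habB⟩ := S.not_mem
  have h1 : ∀ u : G, orderOf u = 2 → ¬ IsConj (1 : G) u := fun u hu h => by
    obtain ⟨d, hd⟩ := isConj_iff.1 h
    rw [mul_one, mul_inv_cancel] at hd
    rw [← hd, orderOf_one] at hu
    omega
  have hne : ∀ x ∈ ({1, S.a, S.b, S.a * S.b} : Finset G),
      ∀ y ∈ ({1, S.a, S.b, S.a * S.b} : Finset G), IsConj x y → x = y := by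
    have e1 : ¬ IsConj S.a S.b := fun h => hb ((S.conjA _ S.bP).1 h).1
    have e2 : ¬ IsConj S.a (S.a * S.b) := fun h => habA ((S.conjA _ (mul_mem S.aP S.bP)).1 h).1
    have e3 : ¬ IsConj S.b (S.a * S.b) := fun h => habB ((S.conjB _ (mul_mem S.aP S.bP)).1 h).1
    intro x hx y hy h
    simp only [Finset.mem_insert, Finset.mem_singleton] at hx hy
    rcases hx with rfl | rfl | rfl | rfl <;> rcases hy with rfl | rfl | rfl | rfl <;>
      first
        | rfl
        | exact absurd h (h1 _ S.oa) | exact absurd h.symm (h1 _ S.oa)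
        | exact absurd h (h1 _ S.ob) | exact absurd h.symm (h1 _ S.ob)
        | exact absurd h (h1 _ S.oab) | exact absurd h.symm (h1 _ S.oab)
        | exact absurd h e1 | exact absurd h.symm e1
        | exact absurd h e2 | exact absurd h.symm e2
        | exact absurd h e3 | exact absurd h.symm e3
  obtain ⟨x, hx, hcx⟩ : ∃ x ∈ ({1, S.a, S.b, S.a * S.b} : Finset G), IsConj g x := by
    by_cases h0 : c * g * c⁻¹ = 1
    · exact ⟨1, by simp, h0 ▸ hgx⟩
    by_cases hA : c * g * c⁻¹ ∈ S.Va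
    · exact ⟨S.a, by simp, hgx.trans ((S.conjA _ hmem).2 ⟨hA, h0⟩).symm⟩
    by_cases hB : c * g * c⁻¹ ∈ S.Vb
    · exact ⟨S.b, by simp, hgx.trans ((S.conjB _ hmem).2 ⟨hB, h0⟩).symm⟩
    exact ⟨S.a * S.b, by simp, hgx.trans ((S.conjAB _ hmem).2 ⟨hA, hB⟩).symm⟩
  exact ⟨x, ⟨hx, hcx⟩, fun y hy => hne y hy.1 x hx (hy.2.symm.trans hcx)⟩

/-- The count: seven more characters than the rank. -/
theorem natCard_block_eq (S : Setting P) (hM : IsPModular 2 M) (hcard : Nat.card P = 16)
    (hel : ∀ x : P, x ^ 2 = 1) :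
    Nat.card (principalBlock M G) = blockRank 2 (principalBlock M G) + 7 := by
  classical
  have := isMaximal_of_isPModular hM
  haveI : Fact (Nat.Prime 2) := ⟨Nat.prime_two⟩
  have hB : IsPBlock M (principalBlock M G) := PrincipalLinear.isPBlock_principal M
  have hpow : ∀ x ∈ ({1, S.a, S.b, S.a * S.b} : Finset G), ∃ k : ℕ, orderOf x = 2 ^ k := by
    intro x hx
    simp only [Finset.mem_insert, Finset.mem_singleton] at hx
    rcases hx with rfl | rfl | rfl | rfl
    · exact ⟨0, orderOf_one⟩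
    · exact ⟨1, S.oa⟩
    · exact ⟨1, S.ob⟩
    · exact ⟨1, S.oab⟩
  rw [natCard_block_eq_sum_blockRank hM hB _ hpow S.exists_unique_rep]
  obtain ⟨ha, hb, habA, habB⟩ := S.not_mem
  have n1 : ∀ u : G, orderOf u = 2 → (1 : G) ≠ u := fun u hu e => by
    rw [← e, orderOf_one] at hu; omega
  have n2 : S.a ≠ S.b := fun e => hb (e ▸ S.aVa)
  have n3 : S.a ≠ S.a * S.b := fun e => habA (e ▸ S.aVa)
  have n4 : S.b ≠ S.a * S.b := fun e => habB (e ▸ S.bVb)
  rw [Finset.sum_insert (by simp [n1 _ S.oa, n1 _ S.ob, n1 _ S.oab]),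
    Finset.sum_insert (by simp [n2, n3]), Finset.sum_insert (by simp [n4]), Finset.sum_singleton,
    KleinFour.sum_rank_central hM hB ⟨0, orderOf_one⟩ (Subgroup.one_mem _),
    finsum_rank_principal hM ⟨1, S.oa⟩, finsum_rank_principal hM ⟨1, S.ob⟩,
    finsum_rank_principal hM ⟨1, S.oab⟩,
    rank_centralizer hM hcard hel S.a S.Va S.aP S.leA S.cardA S.fixA S.transA,
    rank_centralizer hM hcard hel S.b S.Vb S.bP S.leB S.cardB S.fixB S.transB,
    PrincipalPair.rank_one_of_hasNormalPComplement hM (hasNormalPComplement_centralizer S hel)]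
  all_goals omega

/-- The rank is at least two. -/
theorem two_le_blockRank (S : Setting P) (hM : IsPModular 2 M) (hel : ∀ x : P, x ^ 2 = 1) :
    2 ≤ blockRank 2 (principalBlock M G) := by
  classical
  haveI : Fact (Nat.Prime 2) := ⟨Nat.prime_two⟩
  have := isMaximal_of_isPModular hM
  have h0 : blockRank 2 (principalBlock M G) ≠ 0 := by
    intro h
    have : (fun χ : IrrCharacter G => pRegularPart 2 (χ : G → ℂ)) (Chars.oneChar G) = 0 := by
      have hm := Submodule.subset_span (R := ℂ)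
        (Set.mem_image_of_mem (fun χ : IrrCharacter G => pRegularPart 2 (χ : G → ℂ))
          (PrincipalLinear.one_mem (G := G) hM))
      rw [Submodule.finrank_eq_zero.1 (show Module.finrank ℂ ↥(Submodule.span ℂ _) = 0 from h)] at hm
      exact hm
    have h1 := congrFun this 1
    simp [pRegularPart, IsPRegular] at h1
  have h1 : blockRank 2 (principalBlock M G) ≠ 1 := by
    intro h
    have hn := PrincipalPair.hasNormalPComplement_of_rank_one hM h
    -- then `2`-elements of `P` that are conjugate are equal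
    obtain ⟨ha, -, -, -⟩ := S.not_mem
    obtain ⟨x, hx, hne⟩ : ∃ x ∈ S.Va, x ≠ 1 ∧ x ≠ S.a := by
      by_contra hcon
      push Not at hcon
      have hsub : (S.Va : Set G) ⊆ {1, S.a} := fun y hy => by
        by_cases h : y = 1
        · exact Or.inl h
        · exact Or.inr (hcon y hy h)
      have := (Set.ncard_le_ncard hsub (Set.toFinite _)).trans (Set.ncard_insert_le _ _)
      rw [← Nat.card_coe_set_eq, Set.ncard_singleton] at this
      have h4 := S.cardA
      simp only [SetLike.coe_sort_coe] at this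
      omega
    obtain ⟨g, hg⟩ := isConj_iff.1 ((S.conjA x (S.leA hx)).2 ⟨hx, hne.1⟩)
    obtain ⟨N, hN, hc⟩ := Transfer.exists_isComplement' hn P
    obtain ⟨⟨n, y⟩, hny⟩ := hc.2 g
    have hny' : (n : G) * y = g := hny
    have hya : (y : G) * S.a * (y : G)⁻¹ = S.a := by
      have h := congrArg Subtype.val
        (Commute.of_orderOf_dvd_two (fun c : P => orderOf_dvd_of_pow_eq_one (hel c))
          (⟨y, y.2⟩ : P) ⟨S.a, S.aP⟩)
      exact mul_inv_eq_iff_eq_mul.2 h
    have hxe : x = (n : G) * S.a * (n : G)⁻¹ := by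
      rw [← hg, ← hny']
      conv_rhs => rw [← hya]
      group
    have hmem : S.a⁻¹ * x ∈ N ⊓ (P : Subgroup G) := by
      refine ⟨?_, Subgroup.mul_mem _ (Subgroup.inv_mem _ S.aP) (S.leA hx)⟩
      have h := N.mul_mem (hN.conj_mem _ n.2 S.a⁻¹) (N.inv_mem n.2)
      rw [hxe]
      simpa [mul_assoc] using h
    rw [hc.disjoint.eq_bot, Subgroup.mem_bot] at hmem
    exact hne.2 (inv_mul_eq_one.1 hmem).symm
  omega

end Setting

end CfsgLib.Blocks.RankFourNine
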