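import Cfsg.Agent.Blocks.RankFourNine.SectionFn
import Cfsg.Agent.Chars.Brauer.Characterization
import Cfsg.Agent.Chars.Brauer.Monomial
import Cfsg.Agent.Chars.Induced.Basic

/-!
# Four times the indicator of the sections of a subgroup of index four
-/

set_option autoImplicit false
set_option linter.style.haveILetI false

namespace CfsgLib.Blocks.RankFourNine

open Cfsg CfsgLib

universe u

variable {G : Type u} [Group G] [Fintype G]

theorem orderOf_pow_ppExp [Fact (Nat.Prime 2)] {E : Subgroup G} [hE : Group.IsNilpotent E]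
    (x y : E) : (x * y) ^ ppExp 2 G = x ^ ppExp 2 G * y ^ ppExp 2 G := by
  obtain ⟨e⟩ := ((Group.isNilpotent_of_finite_tfae (G := E)).out 0 4).mp hE
  obtain ⟨a, rfl⟩ := e.surjective x
  obtain ⟨b, rfl⟩ := e.surjective y
  rw [← map_mul, ← map_pow, ← map_pow, ← map_pow, ← map_mul]
  congr 1
  funext q Q
  show (a q Q * b q Q) ^ ppExp 2 G = (a q Q) ^ ppExp 2 G * (b q Q) ^ ppExp 2 G
  have hq : (q : ℕ).Prime := Nat.prime_of_mem_primeFactors q.2
  have : Fact (q : ℕ).Prime := ⟨hq⟩
  have hord : ∀ z : (Q : Subgroup E), ∃ j : ℕ, orderOf ((z : E) : G) = (q : ℕ) ^ j := fun z => by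
    obtain ⟨j, hj⟩ := IsPGroup.iff_orderOf.1 Q.isPGroup' z
    exact ⟨j, by rw [Subgroup.orderOf_coe, Subgroup.orderOf_coe, hj]⟩
  by_cases hq2 : (q : ℕ) = 2
  · have hall : ∀ z : (Q : Subgroup E), z ^ ppExp 2 G = z := fun z => by
      obtain ⟨j, hj⟩ := hord z
      apply Subtype.ext; apply Subtype.ext
      show (((z : E) : G)) ^ ppExp 2 G = _
      exact ppart_of_pow ⟨j, hj.trans (congrArg (· ^ j) hq2)⟩
    rw [hall, hall, hall]
  · have hall : ∀ z : (Q : Subgroup E), z ^ ppExp 2 G = 1 := fun z => by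
      obtain ⟨j, hj⟩ := hord z
      apply Subtype.ext; apply Subtype.ext
      show (((z : E) : G)) ^ ppExp 2 G = _
      have h := ppart_mul (p := 2) (Commute.one_left ((z : E) : G)) ⟨0, orderOf_one⟩ (by
        show ¬ 2 ∣ orderOf ((z : E) : G)
        rw [hj]
        exact fun h => hq2 ((Nat.prime_dvd_prime_iff_eq Nat.prime_two hq).1
          (Nat.prime_two.dvd_of_dvd_pow h)).symm)
      rw [one_mul] at h
      exact h
    rw [hall, hall, hall, one_mul]

/-- The two-part on a nilpotent subgroup. -/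
noncomputable def ppartHom [Fact (Nat.Prime 2)] (E : Subgroup G) [Group.IsNilpotent E] : E →* G where
  toFun e := ppart 2 (e : G)
  map_one' := one_pow _
  map_mul' x y := by
    show ((x : G) * y) ^ ppExp 2 G = (x : G) ^ ppExp 2 G * (y : G) ^ ppExp 2 G
    exact congrArg Subtype.val (orderOf_pow_ppExp x y)

/-- Four times the indicator of the sections meeting a subgroup of index four of the Sylow subgroup
is a generalized character. -/
theorem isGeneralizedCharacter_four [Fact (Nat.Prime 2)] (P : Sylow 2 G)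
    (hel : ∀ x : P, x ^ 2 = 1) (hcard : Nat.card P = 16) (v : G) (V : Subgroup G)
    (hV : V ≤ (P : Subgroup G)) (hV4 : Nat.card V = 4) (hv : orderOf v = 2)
    (hconj : ∀ x ∈ (P : Subgroup G), (IsConj v x ↔ x ∈ V ∧ x ≠ 1)) :
    IsGeneralizedCharacter G ((4 : ℂ) • (secInd 2 1 + secInd 2 v)) := by
  classical
  refine Chars.Brauer.isGeneralizedCharacter_of_elementary
    ((isSecFn_secInd 1).add (isSecFn_secInd v) |>.smul 4).1 fun E q hq hE => ?_
  haveI : Group.IsNilpotent E := Chars.Brauer.isNilpotent_of_isElementary hq hE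
  haveI := Fintype.ofFinite E
  have hπ : ∀ e : E, ∃ k : ℕ, orderOf (ppartHom E e) = 2 ^ k := fun e =>
    exists_orderOf_ppart (p := 2) (e : G)
  obtain ⟨Q, hQ⟩ := (IsPGroup.iff_orderOf.2 (fun g : (ppartHom E).range => by
    obtain ⟨e, he⟩ := g.2
    obtain ⟨k, hk⟩ := hπ e
    exact ⟨k, by rw [← Subgroup.orderOf_coe, ← he, hk]⟩) : IsPGroup 2 (ppartHom E).range).exists_le_sylow
  obtain ⟨c, hc⟩ := MulAction.exists_smul_eq G Q P
  have hmem : ∀ e : E, c * ppartHom E e * c⁻¹ ∈ (P : Subgroup G) := fun e => by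
    rw [← hc]
    exact Subgroup.smul_mem_pointwise_smul _ (MulAut.conj c) _ (hQ ⟨e, rfl⟩)
  let ψ : E →* P := ((MulAut.conj c).toMonoidHom.comp (ppartHom E)).codRestrict _ hmem
  haveI : IsMulCommutative (P : Subgroup G) := ⟨⟨fun x y =>
    (Commute.of_orderOf_dvd_two (fun z : P => orderOf_dvd_of_pow_eq_one (hel z)) x y)⟩⟩
  haveI hVn : (V.subgroupOf (P : Subgroup G)).Normal := Subgroup.normal_of_comm _
  set K := (V.subgroupOf (P : Subgroup G)).comap ψ with hK
  haveI := Fintype.ofFinite K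
  have hi : (V.subgroupOf (P : Subgroup G)).index = 4 := by
    have h := (V.subgroupOf (P : Subgroup G)).card_mul_index
    rw [Nat.card_congr (Subgroup.subgroupOfEquivOfLe hV).toEquiv, hV4] at h
    have h' : 4 * (V.subgroupOf (P : Subgroup G)).index = 16 := h.trans hcard
    omega
  obtain ⟨n, hn⟩ : K.index ∣ 4 := by
    rw [hK, Subgroup.index_comap, ← hi]
    exact Subgroup.relIndex_dvd_index_of_normal _ _
  have h1 : ∀ w : G, IsConj (1 : G) w ↔ w = 1 := fun w =>
    ⟨fun h => by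
      obtain ⟨d, hd⟩ := isConj_iff.1 h
      rw [mul_one, mul_inv_cancel] at hd
      exact hd.symm, fun h => by subst h; exact IsConj.refl _⟩
  have hval : ∀ e : E, (secInd 2 1 + secInd 2 v : G → ℂ) (e : G) = if e ∈ K then 1 else 0 := by
    intro e
    have hcj : IsConj (ppart 2 (e : G)) (ψ e : G) := isConj_iff.2 ⟨c, rfl⟩
    have ea : IsConj 1 (ppart 2 (e : G)) ↔ (ψ e : G) = 1 :=
      ⟨fun h => (h1 _).1 (h.trans hcj), fun h => ((h1 _).2 h).trans hcj.symm⟩
    have eb : IsConj v (ppart 2 (e : G)) ↔ (ψ e : G) ∈ V ∧ (ψ e : G) ≠ 1 :=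
      (show IsConj v (ppart 2 (e : G)) ↔ IsConj v (ψ e : G) from
        ⟨fun h => h.trans hcj, fun h => h.trans hcj.symm⟩).trans (hconj _ (ψ e).2)
    have eK : e ∈ K ↔ (ψ e : G) ∈ V := Iff.rfl
    simp only [Pi.add_apply, secInd, ea, eb, eK]
    by_cases h : (ψ e : G) = 1
    · simp [h, V.one_mem]
    · simp [h]
  have key : (fun e : E => ((4 : ℂ) • (secInd 2 1 + secInd 2 v : G → ℂ)) (e : G)) =
      (n : ℤ) • indFun K (fun _ => 1) := by
    funext e
    rw [Pi.smul_apply, Pi.smul_apply, hval, smul_eq_mul, zsmul_eq_mul, Int.cast_natCast]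
    by_cases he : e ∈ K
    · have hind : indFun K (fun _ => (1 : ℂ)) e = (K.index : ℂ) := by
        rw [show e = ((⟨e, he⟩ : K) : E) from rfl, Chars.Induced.indFun_normal_mem]
        simp only [Chars.Induced.conjFun_apply, Finset.sum_const, Finset.card_univ, nsmul_eq_mul, mul_one]
        rw [← Nat.card_eq_fintype_card, ← K.card_mul_index, Nat.cast_mul,
          inv_mul_cancel_left₀ (Nat.cast_ne_zero.2 Nat.card_pos.ne')]
      rw [if_pos he, hind, mul_one, mul_comm, ← Nat.cast_mul, ← hn]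
      norm_num
    · rw [if_neg he, Chars.Induced.indFun_normal_notMem _ he, mul_zero, mul_zero]
  rw [key]
  exact Chars.Exceptional.gen_zsmul _ (Chars.Brauer.gen_indFun
    (Chars.Exceptional.gen_of_irr (Chars.oneChar K).2 : IsGeneralizedCharacter K fun _ => (1 : ℂ)))

/-- The multiplication matrix of a generalized character is integral. -/
theorem exists_int_mat {g : G → ℂ} (hg : IsGeneralizedCharacter G g) (χ ψ : IrrCharacter G) :
    ∃ z : ℤ, mat g χ ψ = (z : ℂ) := by
  obtain ⟨c, d, hc, hd, rfl⟩ := hg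
  obtain ⟨m, hm⟩ := Chars.exists_nat_classInner'
    (Chars.isCharacter_mul (Chars.isCharacter_coe χ) hc) (Chars.isCharacter_coe ψ)
  obtain ⟨n, hn⟩ := Chars.exists_nat_classInner'
    (Chars.isCharacter_mul (Chars.isCharacter_coe χ) hd) (Chars.isCharacter_coe ψ)
  refine ⟨(m : ℤ) - n, ?_⟩
  push_cast
  rw [← hm, ← hn, mat, ← Chars.classInner_sub_left]
  congr 1
  funext x
  simp [mul_sub]

end CfsgLib.Blocks.RankFourNine
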