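import Cfsg.Agent.Blocks.RankFourNine.Matrix
import Cfsg.Agent.Blocks.RankFourNine.Count
import Cfsg.Agent.Blocks.RankFourNine.GenChar
import Cfsg.Agent.Chars.Basic

/-!
# An elementary abelian Sylow subgroup of order sixteen with index nine: sixteen characters
-/

set_option autoImplicit false
set_option linter.style.haveILetI false

namespace CfsgLib.Blocks.RankFourNine

open Cfsg CfsgLib
open scoped ComplexConjugate

universe u

variable {G : Type u} [Group G] [Fintype G] {M : Ideal AlgInt} {P : Sylow 2 G}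

theorem sylow_le_centralizer (hel : ∀ x : P, x ^ 2 = 1) {v : G} (hv : v ∈ (P : Subgroup G)) :
    (P : Subgroup G) ≤ Subgroup.centralizer ({v} : Set G) := fun x hx =>
  Subgroup.mem_centralizer_singleton_iff.2 (congrArg Subtype.val
    (Commute.of_orderOf_dvd_two (fun c : P => orderOf_dvd_of_pow_eq_one (hel c))
      (⟨x, hx⟩ : P) ⟨v, hv⟩))

theorem factorization_centralizer (hel : ∀ x : P, x ^ 2 = 1) {v : G} (hv : v ∈ (P : Subgroup G)) :
    (Nat.card (Subgroup.centralizer ({v} : Set G))).factorization 2 =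
      (Nat.card G).factorization 2 := by
  haveI : Fact (Nat.Prime 2) := ⟨Nat.prime_two⟩
  have hd : ¬ 2 ∣ (Subgroup.centralizer ({v} : Set G)).index := fun h =>
    P.not_dvd_index (h.trans (Subgroup.index_dvd_of_le (sylow_le_centralizer hel hv)))
  rw [← (Subgroup.centralizer ({v} : Set G)).card_mul_index,
    Nat.factorization_mul Nat.card_pos.ne' Subgroup.index_ne_zero_of_finite,
    Finsupp.add_apply, Nat.factorization_eq_zero_of_not_dvd hd, add_zero]

/-- The value at an involution is an integer. -/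
theorem exists_int_value {t : G} (ht : orderOf t = 2) (χ : IrrCharacter G) :
    ∃ k : ℤ, (χ : G → ℂ) t = (k : ℂ) := by
  obtain ⟨s, h1, -, h3⟩ := Chars.exists_roots (Chars.isCharacter_coe χ) t
  have hz : ∀ z ∈ s, z = 1 ∨ z = -1 := fun z hz => mul_self_eq_one_iff.1 (by
    have := h1 z hz
    rw [ht, pow_two] at this
    exact this)
  have e := h3 1
  simp only [pow_one, Multiset.map_id'] at e
  rw [e]
  clear e h3 h1
  induction s using Multiset.induction with
  | empty => exact ⟨0, by simp⟩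
  | cons z u ih =>
    obtain ⟨k, hk⟩ := ih fun w hw => hz w (Multiset.mem_cons_of_mem hw)
    rcases hz z (Multiset.mem_cons_self z u) with rfl | rfl
    · exact ⟨1 + k, by rw [Multiset.sum_cons, hk]; push_cast; ring⟩
    · exact ⟨-1 + k, by rw [Multiset.sum_cons, hk]; push_cast; ring⟩

/-- The section of `a * b` has rank one. -/
theorem mat_secInd_ab [Fact (Nat.Prime 2)] (S : Setting P) (hM : IsPModular 2 M)
    (hcard : Nat.card P = 16) (hel : ∀ x : P, x ^ 2 = 1) {χ ψ : IrrCharacter G}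
    (hχ : χ ∈ principalBlock M G) (hψ : ψ ∈ principalBlock M G) :
    16 * mat (secInd 2 (S.a * S.b)) χ ψ =
      (χ : G → ℂ) (S.a * S.b) * conj ((ψ : G → ℂ) (S.a * S.b)) := by
  classical
  have := isMaximal_of_isPModular hM
  set u := S.a * S.b
  set H := Subgroup.centralizer ({u} : Set G) with hH
  have hu : ∃ e : ℕ, orderOf u = 2 ^ e := ⟨1, S.oab⟩
  have hn : HasNormalPComplement 2 H := hasNormalPComplement_centralizer S hel
  have hl := PrincipalPair.rank_one_of_hasNormalPComplement hM hn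
  have hval : ∀ φ : IrrCharacter G, φ ∈ principalBlock M G → ∀ s ∈ regSet 2 H,
      (φ : G → ℂ) (u * (s : G)) = (φ : G → ℂ) u := by
    intro φ hφ s hs
    set f : H → ℂ := fun c => (φ : G → ℂ) (u * (c : G)) with hf
    have hconst : blockPart (principalBlock M H) f s = blockPart (principalBlock M H) f 1 := by
      simp only [blockPart_apply_eq, Finset.sum_apply, Pi.smul_apply]
      refine Finset.sum_congr rfl fun η hη => ?_
      rw [PrincipalPair.eq_oneChar_smul_of_rank_one hM hl ((Set.Finite.mem_toFinset _).1 hη)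
        (mem_regSet.1 hs)]
    have h1 : (1 : H) ∈ regSet 2 H := mem_regSet.2 (by simp [IsPRegular])
    exact ((HeightZero.apply_section_eq_blockPart hM hu hφ (mem_regSet.1 hs)).trans hconst).trans
      ((HeightZero.apply_section_eq_blockPart hM hu hφ (mem_regSet.1 h1)).symm.trans
        (by rw [Subgroup.coe_one, mul_one]))
  have h := natCard_mul_mat_secInd (p := 2) hu χ ψ
  rw [Finset.sum_congr rfl fun s hs => by rw [hval χ hχ s hs, hval ψ hψ s hs], Finset.sum_const,
    nsmul_eq_mul] at h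
  obtain ⟨N, hN, hc, k, hk⟩ := Transfer.hasNormalPComplement_iff_exists.1 hn
  have hPH : (P : Subgroup G) ≤ H := sylow_le_centralizer hel (Subgroup.mul_mem _ S.aP S.bP)
  have hidx : N.index = 16 := by
    rw [(Transfer.isComplement'_sylow hc hk (P.subtype hPH)).symm.index_eq_card]
    show Nat.card ((P.subtype hPH : Sylow 2 H) : Subgroup H) = 16
    rw [Sylow.coe_subtype P hPH, Nat.card_congr (Subgroup.subgroupOfEquivOfLe hPH).toEquiv]
    exact hcard
  have hcnt : Nat.card H = 16 * (regSet 2 H).card := by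
    have e : (regSet 2 H).card = Nat.card N := by
      rw [← Fintype.card_coe, ← Nat.card_eq_fintype_card]
      refine Nat.card_congr (Equiv.subtypeEquivRight fun s => ?_)
      rw [mem_regSet, Transfer.mem_iff_coprime_of_pPower_index hc hk]
      exact ⟨Transfer.coprime_of_not_dvd, Transfer.not_dvd_of_coprime⟩
    rw [e, ← N.card_mul_index, hidx, mul_comm]
  rw [hcnt] at h
  push_cast at h
  have hne : ((regSet 2 H).card : ℂ) ≠ 0 := by
    intro h0
    rw [Nat.cast_eq_zero] at h0
    have := Nat.card_pos (α := H)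
    rw [hcnt, h0, mul_zero] at this
    exact lt_irrefl 0 this
  refine mul_left_cancel₀ hne ?_
  linear_combination h

set_option maxHeartbeats 1000000 in
/-- **Sixteen characters, nine modular.** -/
theorem natCard_block_and_blockRank (hM : IsPModular 2 M) (hcard : Nat.card P = 16)
    (hel : ∀ x : P, x ^ 2 = 1)
    (he : (Subgroup.centralizer ((P : Subgroup G) : Set G)).relIndex
      (Subgroup.normalizer ((P : Subgroup G) : Set G)) = 9) :
    Nat.card (principalBlock M G) = 16 ∧ blockRank 2 (principalBlock M G) = 9 := by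
  classical
  haveI : Fact (Nat.Prime 2) := ⟨Nat.prime_two⟩
  have := isMaximal_of_isPModular hM
  obtain ⟨S⟩ := exists_setting hcard hel he
  have hB : IsPBlock M (principalBlock M G) := PrincipalLinear.isPBlock_principal M
  set T := (principalBlock M G).toFinite.toFinset with hT
  have hmem : ∀ χ ∈ T, χ ∈ principalBlock M G := fun χ hχ => (Set.Finite.mem_toFinset _).1 hχ
  have hTcard : T.card = Nat.card (principalBlock M G) := by
    rw [Nat.card_coe_set_eq, hT, Set.ncard_eq_toFinset_card _ (principalBlock M G).toFinite]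
  set E1 : G → ℂ := secInd 2 1 with hE1
  set Ea : G → ℂ := secInd 2 S.a with hEa
  set Eb : G → ℂ := secInd 2 S.b with hEb
  set Ec : G → ℂ := secInd 2 (S.a * S.b) with hEc
  set gA : G → ℂ := (4 : ℂ) • (Ea + Ec) with hgA
  set gB : G → ℂ := (4 : ℂ) • (Eb + Ec) with hgB
  have hsA : IsSecFn 2 gA := ((isSecFn_secInd _).add (isSecFn_secInd _)).smul 4
  have hsB : IsSecFn 2 gB := ((isSecFn_secInd _).add (isSecFn_secInd _)).smul 4
  have hsC : IsSecFn 2 Ec := isSecFn_secInd _
  obtain ⟨hna, hnb, hnab1, hnab2⟩ := S.not_mem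
  have n1 : ∀ v : G, orderOf v = 2 → (1 : G) ≠ v := fun v hv e => by
    rw [← e, orderOf_one] at hv; omega
  have hfour : ∀ x : G, (E1 x = 1 ∧ Ea x = 0 ∧ Eb x = 0 ∧ Ec x = 0) ∨
      (E1 x = 0 ∧ Ea x = 1 ∧ Eb x = 0 ∧ Ec x = 0) ∨
      (E1 x = 0 ∧ Ea x = 0 ∧ Eb x = 1 ∧ Ec x = 0) ∨
      (E1 x = 0 ∧ Ea x = 0 ∧ Eb x = 0 ∧ Ec x = 1) := by
    intro x
    obtain ⟨r, ⟨hr, hcr⟩, huniq⟩ := S.exists_unique_rep (ppart 2 x) (exists_orderOf_ppart x)
    have key : ∀ w ∈ ({1, S.a, S.b, S.a * S.b} : Finset G),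
        secInd 2 w x = if w = r then 1 else 0 := by
      intro w hw
      simp only [secInd]
      exact if_congr ⟨fun h => huniq w ⟨hw, h.symm⟩, fun h => h ▸ hcr.symm⟩ rfl rfl
    simp only [hE1, hEa, hEb, hEc, key 1 (by simp), key S.a (by simp), key S.b (by simp),
      key (S.a * S.b) (by simp)]
    have n2 : S.a ≠ S.b := fun e => hnb (e ▸ S.aVa)
    have n3 : S.a ≠ S.a * S.b := fun e => hnab1 (e ▸ S.aVa)
    have n4 : S.b ≠ S.a * S.b := fun e => hnab2 (e ▸ S.bVb)
    simp only [Finset.mem_insert, Finset.mem_singleton] at hr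
    rcases hr with rfl | rfl | rfl | rfl
    · exact Or.inl ⟨if_pos rfl, if_neg (n1 _ S.oa).symm, if_neg (n1 _ S.ob).symm,
        if_neg (n1 _ S.oab).symm⟩
    · exact Or.inr (Or.inl ⟨if_neg (n1 _ S.oa), if_pos rfl, if_neg n2.symm, if_neg n3.symm⟩)
    · exact Or.inr (Or.inr (Or.inl ⟨if_neg (n1 _ S.ob), if_neg n2, if_pos rfl, if_neg n4.symm⟩))
    · exact Or.inr (Or.inr (Or.inr ⟨if_neg (n1 _ S.oab), if_neg n3, if_neg n4, if_pos rfl⟩))
  have hpt : ∀ x : G, gA x * gA x = 4 * gA x ∧ gB x * gB x = 4 * gB x ∧ gA x * gB x = 16 * Ec x ∧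
      gA x * Ec x = 4 * Ec x ∧ gB x * Ec x = 4 * Ec x ∧ Ec x * Ec x = Ec x ∧
      E1 x + Ea x + Eb x + Ec x = 1 := by
    intro x
    simp only [hgA, hgB, Pi.smul_apply, Pi.add_apply, smul_eq_mul]
    rcases hfour x with ⟨h1, h2, h3, h4⟩ | ⟨h1, h2, h3, h4⟩ | ⟨h1, h2, h3, h4⟩ | ⟨h1, h2, h3, h4⟩ <;>
      rw [h1, h2, h3, h4] <;> norm_num
  -- integrality
  have hgen : IsGeneralizedCharacter G gA ∧ IsGeneralizedCharacter G gB := by
    have hfr : ∀ f : G → ℂ, IsGeneralizedCharacter G f →
        IsGeneralizedCharacter G ((4 : ℤ) • (fun _ => (1 : ℂ)) - f) := fun f hf =>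
      Chars.Exceptional.gen_sub (Chars.Exceptional.gen_zsmul 4
        (Chars.Exceptional.gen_of_irr (Chars.oneChar G).2)) hf
    constructor
    · convert hfr _ (isGeneralizedCharacter_four P hel hcard S.b S.Vb S.leB S.cardB S.ob S.conjB) using 1
      funext x
      simp only [hgA, Pi.sub_apply, Pi.mul_apply, Pi.intCast_apply, Pi.smul_apply, Pi.add_apply, smul_eq_mul, zsmul_eq_mul]
      have h := (hpt x).2.2.2.2.2.2
      push_cast
      linear_combination 4 * h
    · convert hfr _ (isGeneralizedCharacter_four P hel hcard S.a S.Va S.leA S.cardA S.oa S.conjA) using 1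
      funext x
      simp only [hgB, Pi.sub_apply, Pi.mul_apply, Pi.intCast_apply, Pi.smul_apply, Pi.add_apply, smul_eq_mul, zsmul_eq_mul]
      have h := (hpt x).2.2.2.2.2.2
      push_cast
      linear_combination 4 * h
  choose U hU using exists_int_mat hgen.1
  choose U' hU' using exists_int_mat hgen.2
  choose d hd using exists_int_value (G := G) S.oab
  have hd1 : d (Chars.oneChar G) = 1 := by
    have h := hd (Chars.oneChar G)
    rw [Chars.oneChar_apply] at h
    exact_mod_cast h.symm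
  have hC : ∀ χ ∈ T, ∀ ψ ∈ T, 16 * mat Ec χ ψ = ((d χ * d ψ : ℤ) : ℂ) := fun χ hχ ψ hψ => by
    rw [hEc, mat_secInd_ab S hM hcard hel (hmem χ hχ) (hmem ψ hψ), hd, hd, map_intCast, Int.cast_mul]
  have hone : Chars.oneChar G ∈ T := (Set.Finite.mem_toFinset _).2 (PrincipalLinear.one_mem hM)
  have hreal : ∀ (v x : G), conj (((4 : ℂ) • (secInd 2 v + Ec)) x) = ((4 : ℂ) • (secInd 2 v + Ec)) x := by
    intro v x
    simp only [hEc, Pi.smul_apply, Pi.add_apply, smul_eq_mul, map_mul, map_add, conj_secInd,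
      map_ofNat]
  have hproj : ∀ (g : G → ℂ) (W : IrrCharacter G → IrrCharacter G → ℤ), IsSecFn 2 g →
      (∀ χ ψ, mat g χ ψ = (W χ ψ : ℂ)) → (∀ x, conj (g x) = g x) →
      (∀ x, g x * g x = 4 * g x) → (∀ x, g x * Ec x = 4 * Ec x) → IsScaledProj T W d := by
    intro g W hg hW hr hgg hgc
    refine ⟨fun i _ j _ => ?_, fun i hi j _ => ?_, fun i hi => ?_⟩
    · have h := mat_symm hr j i
      rw [hW, hW, map_intCast] at h
      exact_mod_cast h
    · have h := sum_mat_mul (h := g) hM hg (hmem i hi) j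
      rw [show g * g = (4 : ℂ) • g from funext fun x => hgg x, mat_smul, hW] at h
      simp only [hW, ← hT] at h
      exact_mod_cast h
    · have h := sum_mat_mul (h := Ec) hM hg (hmem i hi) (Chars.oneChar G)
      rw [show g * Ec = (4 : ℂ) • Ec from funext fun x => hgc x, mat_smul, ← hT] at h
      have h16 := congrArg (fun z : ℂ => 16 * z) h
      simp only [Finset.mul_sum] at h16
      rw [Finset.sum_congr rfl fun m hm => by
        rw [hW, mul_left_comm, hC m hm _ hone, hd1, mul_one], mul_left_comm, hC i hi _ hone, hd1,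
        mul_one] at h16
      exact_mod_cast h16
  have hP1 := hproj gA U hsA hU (hreal S.a) (fun x => (hpt x).1) (fun x => (hpt x).2.2.2.1)
  have hP2 := hproj gB U' hsB hU' (hreal S.b) (fun x => (hpt x).2.1) (fun x => (hpt x).2.2.2.2.1)
  have hprod : ∀ i ∈ T, ∀ j ∈ T, ∑ m ∈ T, U i m * U' m j = d i * d j := by
    intro i hi j hj
    have h := sum_mat_mul (h := gB) hM hsA (hmem i hi) j
    rw [show gA * gB = (16 : ℂ) • Ec from funext fun x => (hpt x).2.2.1, mat_smul, hC i hi j hj,
      ← hT] at h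
    simp only [hU, hU'] at h
    exact_mod_cast h
  have hpos : ∀ χ ∈ T, d χ ≠ 0 ∧ d χ * d χ < 4 * U χ χ ∧ d χ * d χ < 4 * U' χ χ ∧
      4 * U χ χ + 4 * U' χ χ < 16 + d χ * d χ := by
    intro χ hχ
    obtain ⟨r1, hr1, e1⟩ := exists_mat_secInd_self_pos (p := 2) hM (u := 1) ⟨0, orderOf_one⟩
      (factorization_centralizer hel (Subgroup.one_mem _)) (hmem χ hχ)
    obtain ⟨ra, hra, ea⟩ := exists_mat_secInd_self_pos (p := 2) hM (u := S.a) ⟨1, S.oa⟩
      (factorization_centralizer hel S.aP) (hmem χ hχ)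
    obtain ⟨rb, hrb, eb⟩ := exists_mat_secInd_self_pos (p := 2) hM (u := S.b) ⟨1, S.ob⟩
      (factorization_centralizer hel S.bP) (hmem χ hχ)
    obtain ⟨rc, hrc, ec⟩ := exists_mat_secInd_self_pos (p := 2) hM (u := S.a * S.b) ⟨1, S.oab⟩
      (factorization_centralizer hel (Subgroup.mul_mem _ S.aP S.bP)) (hmem χ hχ)
    have hd2 : (16 * rc : ℝ) = ((d χ * d χ : ℤ) : ℝ) := by
      have h := hC χ hχ χ hχ
      rw [hEc, ec] at h
      exact_mod_cast h
    have hA2 : ((U χ χ : ℤ) : ℝ) = 4 * (ra + rc) := by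
      have h := hU χ χ
      rw [hgA, mat_smul, mat_add, hEa, hEc, ea, ec] at h
      exact_mod_cast h.symm
    have hB2 : ((U' χ χ : ℤ) : ℝ) = 4 * (rb + rc) := by
      have h := hU' χ χ
      rw [hgB, mat_smul, mat_add, hEb, hEc, eb, ec] at h
      exact_mod_cast h.symm
    have htot : r1 + ra + rb + rc = 1 := by
      have h := mat_one (G := G) χ χ
      rw [if_pos rfl, show (fun _ : G => (1 : ℂ)) = E1 + Ea + Eb + Ec from
        funext fun x => ((hpt x).2.2.2.2.2.2).symm, mat_add, mat_add, mat_add, hE1, hEa, hEb, hEc,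
        e1, ea, eb, ec] at h
      exact_mod_cast h
    refine ⟨fun h0 => ?_, ?_, ?_, ?_⟩
    · rw [h0] at hd2; push_cast at hd2; linarith
    all_goals rw [← Int.cast_lt (R := ℝ)]; push_cast at hd2 ⊢; linarith
  have hsum : ∑ i ∈ T, d i * d i = 16 := by
    have h := sum_mat_mul (h := Ec) hM hsC (hmem _ hone) (Chars.oneChar G)
    rw [show Ec * Ec = Ec from funext fun x => (hpt x).2.2.2.2.2.1, ← hT] at h
    have h16 := congrArg (fun z : ℂ => 16 * (16 * z)) h
    simp only [Finset.mul_sum] at h16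
    rw [Finset.sum_congr rfl fun m hm => show 16 * (16 * (mat Ec (Chars.oneChar G) m *
        mat Ec m (Chars.oneChar G))) = (16 * mat Ec (Chars.oneChar G) m) *
          (16 * mat Ec m (Chars.oneChar G)) by ring,
      Finset.sum_congr rfl fun m hm => by rw [hC _ hone m hm, hC m hm _ hone, hd1, one_mul, mul_one],
      hC _ hone _ hone, hd1] at h16
    exact_mod_cast h16
  have hk := S.natCard_block_eq hM hcard hel
  have hl := S.two_le_blockRank hM hel
  have h16 := card_eq_sixteen hP1 hP2 hprod (fun i hi => (hpos i hi).1) hsum (by omega)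
    (fun i hi => (hpos i hi).2)
  omega

end CfsgLib.Blocks.RankFourNine
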