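import Mathlib.Algebra.BigOperators.Fin
import Mathlib.Algebra.Order.BigOperators.Group.Finset
import Mathlib.Data.ZMod.Basic
import Mathlib.Tactic.Linarith
import Mathlib.Tactic.LinearCombination

/-!
# Two commuting scaled projections with a product of rank one

Integral symmetric matrices `U`, `U'` on a finite set `T` with `U² = 4U`, `U'² = 4U'`,
`U d = 4d = U' d` and `U U' = d dᵀ` for a vector `d` without zeros and of squared length 16, with
diagonals bounded as for contributions of major subsections: if `T` has at least nine elements, it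
has exactly sixteen.
-/

set_option autoImplicit false

namespace CfsgLib.Blocks.RankFourNine

open Finset

variable {ι : Type*} [DecidableEq ι]

/-- The properties of one of the two projections. -/
structure IsScaledProj (T : Finset ι) (U : ι → ι → ℤ) (d : ι → ℤ) : Prop where
  symm : ∀ i ∈ T, ∀ j ∈ T, U i j = U j i
  sq : ∀ i ∈ T, ∀ j ∈ T, ∑ m ∈ T, U i m * U m j = 4 * U i j
  vec : ∀ i ∈ T, ∑ m ∈ T, U i m * d m = 4 * d i

variable {T : Finset ι} {U : ι → ι → ℤ} {d : ι → ℤ}

/-- An even number of odd entries in the columns where `d` is even. -/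
theorem IsScaledProj.parity (h : IsScaledProj T U d) {E : Finset ι} (hE : E ⊆ T)
    (heven : ∀ i ∈ E, Even (d i)) (hodd : ∀ i ∈ T, i ∉ E → Odd (d i)) {j : ι} (hj : j ∈ T) :
    Even (∑ m ∈ E, U j m) := by
  have key : ∀ x : ZMod 2, x * x = x := by decide
  have h1 : ((∑ m ∈ T, U j m * U m j : ℤ) : ZMod 2) = 0 := by
    rw [h.sq j hj j hj]; push_cast; rw [show (4 : ZMod 2) = 0 from rfl, zero_mul]
  have h2 : ((∑ m ∈ T, U j m * d m : ℤ) : ZMod 2) = 0 := by
    rw [h.vec j hj]; push_cast; rw [show (4 : ZMod 2) = 0 from rfl, zero_mul]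
  push_cast at h1 h2
  rw [Finset.sum_congr rfl fun m hm => by rw [h.symm m hm j hj, key],
    ← Finset.sum_sdiff hE] at h1
  rw [← Finset.sum_sdiff hE,
    Finset.sum_congr rfl fun m hm => by
      rw [(ZMod.intCast_eq_one_iff_odd).2 (hodd m (Finset.mem_sdiff.1 hm).1
        (Finset.mem_sdiff.1 hm).2), mul_one],
    Finset.sum_eq_zero (s := E) fun m hm => by
      rw [(ZMod.intCast_eq_zero_iff_even).2 (heven m hm), mul_zero], add_zero] at h2
  rw [h2, zero_add] at h1
  rw [← ZMod.intCast_eq_zero_iff_even]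
  push_cast
  exact h1

/-- The row at an index with `d = ±2` and diagonal two: either a single entry, pointing at
another such index, or four signs aligned with `d`. -/
theorem IsScaledProj.row (h : IsScaledProj T U d) {c : ι} (hc : c ∈ T)
    (hdiag : U c c = 2) :
    ∑ m ∈ T.erase c, U c m * U c m = 4 ∧ ∑ m ∈ T.erase c, U c m * d m = 2 * d c := by
  have h1 := h.sq c hc c hc
  have h2 := h.vec c hc
  rw [← Finset.add_sum_erase _ _ hc, hdiag] at h1 h2
  refine ⟨?_, by linarith⟩
  rw [Finset.sum_congr rfl fun m hm => by rw [h.symm c hc m (Finset.mem_of_mem_erase hm)]] at h1 ⊢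
  linarith

theorem sq_eq_four {x : ℤ} (h : x * x = 4) : x = 2 ∨ x = -2 := by
  have h' : (x - 2) * (x + 2) = 0 := by linarith
  rcases mul_eq_zero.1 h' with h'' | h'' <;> omega

theorem sq_eq_one {x : ℤ} (h : x * x = 1) : x = 1 ∨ x = -1 := by
  have h' : (x - 1) * (x + 1) = 0 := by linarith
  rcases mul_eq_zero.1 h' with h'' | h'' <;> omega

theorem four_le_sq_of_even {x : ℤ} (h : Even x) (h0 : x ≠ 0) : 4 ≤ x * x := by
  obtain ⟨y, rfl⟩ := h
  have : 1 ≤ y * y := by
    rcases lt_trichotomy y 0 with hy | hy | hy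
    · nlinarith
    · simp [hy] at h0
    · nlinarith
  nlinarith

/-- Entries outside the other even index are even. -/
theorem IsScaledProj.even_row (h : IsScaledProj T U d) {E : Finset ι} (hE : E ⊆ T)
    (hcard : E.card ≤ 2) (heven : ∀ i ∈ E, d i * d i = 4) (hone : ∀ i ∈ T, i ∉ E → d i * d i = 1)
    (hdiag : ∀ i ∈ E, U i i = 2) {c : ι} (hc : c ∈ E) {j : ι} (hj : j ∈ T) : Even (U c j) := by
  have hpar : ∀ i ∈ T, Even (∑ m ∈ E, U i m) := fun i hi => h.parity hE
    (fun m hm => by rcases sq_eq_four (heven m hm) with e | e <;> simp [e])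
    (fun m hm hm' => by rcases sq_eq_one (hone m hm hm') with e | e <;> simp [e]) hi
  have hcT := hE hc
  by_contra hodd
  rw [Int.not_even_iff_odd] at hodd
  -- the set is a pair
  obtain ⟨c', hc', hne⟩ : ∃ c' ∈ E, c' ≠ c := by
    by_contra hcon
    push Not at hcon
    have hEq : E = {c} := Finset.eq_singleton_iff_unique_mem.2 ⟨hc, hcon⟩
    have := hpar j hj
    rw [hEq, Finset.sum_singleton, h.symm j hj c hcT] at this
    exact (Int.not_even_iff_odd.2 hodd) this
  have hEq : E = {c, c'} := by
    refine (Finset.eq_of_subset_of_card_le ?_ ?_).symm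
    · intro m hm; simp at hm; rcases hm with rfl | rfl <;> assumption
    · rw [Finset.card_pair (Ne.symm hne)]; exact hcard
  have hc'T := hE hc'
  have hpc := hpar c hcT
  rw [hEq, Finset.sum_pair (Ne.symm hne), hdiag c hc] at hpc
  have hcc' : Even (U c c') := by simpa [Int.even_add] using hpc
  have hjc : j ≠ c := fun e => (Int.not_even_iff_odd.2 hodd) (by rw [e, hdiag c hc]; exact even_two)
  have hjc' : j ≠ c' := fun e => (Int.not_even_iff_odd.2 hodd) (e ▸ hcc')
  have hodd' : Odd (U c' j) := by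
    have := hpar j hj
    rw [hEq, Finset.sum_pair (Ne.symm hne), h.symm j hj c hcT, h.symm j hj c' hc'T,
      Int.even_add] at this
    exact Int.not_even_iff_odd.1 fun e => (Int.not_even_iff_odd.2 hodd) (this.2 e)
  have hjE : j ∉ E := by rw [hEq]; simp [hjc, hjc']
  -- no entry at the partner
  have hzero : U c c' = 0 := by
    by_contra h0
    have h1 := (h.row hcT (hdiag c hc)).1
    have hsub : ({c', j} : Finset ι) ⊆ T.erase c := by
      intro m hm
      simp at hm
      rcases hm with rfl | rfl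
      · exact Finset.mem_erase.2 ⟨hne, hc'T⟩
      · exact Finset.mem_erase.2 ⟨hjc, hj⟩
    have h2 := Finset.sum_le_sum_of_subset_of_nonneg (f := fun m => U c m * U c m) hsub
      fun m _ _ => mul_self_nonneg _
    rw [Finset.sum_pair (Ne.symm hjc'), h1] at h2
    have h3 := four_le_sq_of_even hcc' h0
    have h4 : 1 ≤ U c j * U c j := by
      have : U c j ≠ 0 := fun e => by simp [e] at hodd
      rcases lt_or_gt_of_ne this with hlt | hlt <;> nlinarith
    omega
  -- the signs are aligned with `d`
  have halign : ∀ x ∈ E, ∀ y ∈ E, y ≠ x → U x y = 0 → ∀ m ∈ T, m ∉ E →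
      2 * (U x m * U x m) = d x * (U x m * d m) := by
    intro x hx y hy hyx hxy
    obtain ⟨h1, h2⟩ := h.row (hE hx) (hdiag x hx)
    have hsplit : ∀ f : ι → ℤ, f y = 0 → ∑ m ∈ T.erase x, f m = ∑ m ∈ T \ E, f m := by
      intro f hf
      refine (Finset.sum_subset ?_ ?_).symm
      · intro m hm
        rw [Finset.mem_sdiff] at hm
        exact Finset.mem_erase.2 ⟨fun e => hm.2 (e ▸ hx), hm.1⟩
      · intro m hm hm'
        rw [Finset.mem_erase] at hm
        have hmE : m ∈ E := by
          by_contra hmE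
          exact hm' (Finset.mem_sdiff.2 ⟨hm.2, hmE⟩)
        have : m = y := by
          by_contra hmy
          have h3 : ({x, y, m} : Finset ι).card ≤ E.card := Finset.card_le_card (by
            intro z hz; simp at hz; rcases hz with rfl | rfl | rfl <;> assumption)
          rw [Finset.card_insert_of_notMem (by simp [Ne.symm hyx, Ne.symm hm.1]),
            Finset.card_pair (Ne.symm hmy)] at h3
          omega
        rw [this, hf]
    rw [hsplit _ (by rw [hxy, mul_zero])] at h1
    rw [hsplit _ (by rw [hxy, zero_mul])] at h2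
    have hsum : ∑ m ∈ T \ E, (2 * (U x m * U x m) - d x * (U x m * d m)) = 0 := by
      rw [Finset.sum_sub_distrib, ← Finset.mul_sum, ← Finset.mul_sum, h1, h2]
      have := heven x hx
      linarith
    have hnn : ∀ m ∈ T \ E, 0 ≤ 2 * (U x m * U x m) - d x * (U x m * d m) := by
      intro m hm
      rw [Finset.mem_sdiff] at hm
      have habs : |U x m| ≤ U x m * U x m := by
        rw [← abs_mul_self (U x m), abs_mul]
        rcases eq_or_ne (U x m) 0 with e | e
        · simp [e]
        · exact le_mul_of_one_le_left (abs_nonneg _) (Int.one_le_abs e)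
      have h4 := abs_nonneg (U x m)
      rcases sq_eq_four (heven x hx) with e | e <;> rcases sq_eq_one (hone m hm.1 hm.2) with e' | e' <;>
        rw [e, e'] <;> have := le_abs_self (U x m) <;> have := neg_abs_le (U x m) <;> linarith
    intro m hm hmE
    have := (Finset.sum_eq_zero_iff_of_nonneg hnn).1 hsum m (Finset.mem_sdiff.2 ⟨hm, hmE⟩)
    linarith
  -- orthogonality of the two rows
  have h5 := h.sq c hcT c' hc'T
  rw [← Finset.sum_sdiff hE, hEq, Finset.sum_pair (Ne.symm hne), hzero, zero_mul, mul_zero,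
    add_zero, mul_zero, add_zero, ← hEq] at h5
  have h6 : ∑ m ∈ T \ E, (U c m * U c m) * (U c' m * U c' m) = 0 := by
    have e : ∀ m ∈ T \ E, 4 * ((U c m * U c m) * (U c' m * U c' m)) =
        d c * d c' * (U c m * U m c') := by
      intro m hm
      rw [Finset.mem_sdiff] at hm
      have a1 := halign c hc c' hc' hne hzero m hm.1 hm.2
      have a2 := halign c' hc' c hc (Ne.symm hne) (by rw [h.symm c' hc'T c hcT, hzero]) m hm.1 hm.2
      have a3 := hone m hm.1 hm.2
      rw [h.symm m hm.1 c' hc'T]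
      linear_combination (2 * (U c' m * U c' m)) * a1 + (d c * (U c m * d m)) * a2 +
        (d c * d c' * U c m * U c' m) * a3
    have := Finset.sum_congr rfl e
    rw [← Finset.mul_sum, ← Finset.mul_sum, h5, mul_zero] at this
    linarith
  have h7 := (Finset.sum_eq_zero_iff_of_nonneg fun m _ =>
    mul_nonneg (mul_self_nonneg _) (mul_self_nonneg _)).1 h6 j (Finset.mem_sdiff.2 ⟨hj, hjE⟩)
  simp only [mul_eq_zero, or_self] at h7
  rcases h7 with e | e
  · simp [e] at hodd
  · simp [e] at hodd'

/-- The row at an even index is a single entry at its partner. -/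
theorem IsScaledProj.partner (h : IsScaledProj T U d) {E : Finset ι} (hE : E ⊆ T)
    (hcard : E.card ≤ 2) (heven : ∀ i ∈ E, d i * d i = 4) (hone : ∀ i ∈ T, i ∉ E → d i * d i = 1)
    (hdiag : ∀ i ∈ E, U i i = 2) {c : ι} (hc : c ∈ E) :
    ∃ c' ∈ E, c' ≠ c ∧ E = {c, c'} ∧ U c c' * d c' = 2 * d c ∧
      ∀ m ∈ T, m ≠ c → m ≠ c' → U c m = 0 := by
  obtain ⟨h1, h2⟩ := h.row (hE hc) (hdiag c hc)
  obtain ⟨j, hj, hj0⟩ := Finset.exists_ne_zero_of_sum_ne_zero (by rw [h1]; norm_num :
    ∑ m ∈ T.erase c, U c m * U c m ≠ 0)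
  have hjT := Finset.mem_of_mem_erase hj
  have hjne : j ≠ c := (Finset.mem_erase.1 hj).1
  have hUj : U c j ≠ 0 := fun e => hj0 (by simp [e])
  have hothers : ∀ m ∈ T, m ≠ c → m ≠ j → U c m = 0 := by
    intro m hm hmc hmj
    by_contra h0
    have hsub : ({j, m} : Finset ι) ⊆ T.erase c := by
      intro z hz; simp at hz
      rcases hz with rfl | rfl
      · exact hj
      · exact Finset.mem_erase.2 ⟨hmc, hm⟩
    have h3 := Finset.sum_le_sum_of_subset_of_nonneg (f := fun z => U c z * U c z) hsub
      fun z _ _ => mul_self_nonneg _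
    rw [Finset.sum_pair (Ne.symm hmj), h1] at h3
    have e1 := four_le_sq_of_even (h.even_row hE hcard heven hone hdiag hc hjT) hUj
    have e2 := four_le_sq_of_even (h.even_row hE hcard heven hone hdiag hc hm) h0
    linarith
  rw [Finset.sum_eq_single j (fun m hm hmj => by
      rw [hothers m (Finset.mem_of_mem_erase hm) (Finset.mem_erase.1 hm).1 hmj, mul_zero])
      (fun h' => absurd hj h')] at h1
  rw [Finset.sum_eq_single j (fun m hm hmj => by
      rw [hothers m (Finset.mem_of_mem_erase hm) (Finset.mem_erase.1 hm).1 hmj, zero_mul])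
      (fun h' => absurd hj h')] at h2
  have hjE : j ∈ E := by
    by_contra hjE
    rcases sq_eq_four h1 with e | e <;> rcases sq_eq_one (hone j hjT hjE) with e' | e' <;>
      rcases sq_eq_four (heven c hc) with e'' | e'' <;> rw [e, e', e''] at h2 <;> omega
  refine ⟨j, hjE, hjne, (Finset.eq_of_subset_of_card_le ?_ ?_).symm, h2, hothers⟩
  · intro m hm; simp at hm; rcases hm with rfl | rfl <;> assumption
  · rw [Finset.card_pair (Ne.symm hjne)]; exact hcard

/-- **The count.** -/
theorem card_eq_sixteen {U' : ι → ι → ℤ} (hU : IsScaledProj T U d) (hU' : IsScaledProj T U' d)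
    (hprod : ∀ i ∈ T, ∀ j ∈ T, ∑ m ∈ T, U i m * U' m j = d i * d j)
    (hd : ∀ i ∈ T, d i ≠ 0) (hsum : ∑ i ∈ T, d i * d i = 16) (hnine : 9 ≤ T.card)
    (hpos : ∀ i ∈ T, d i * d i < 4 * U i i ∧ d i * d i < 4 * U' i i ∧
      4 * U i i + 4 * U' i i < 16 + d i * d i) : T.card = 16 := by
  have h1le : ∀ i ∈ T, 1 ≤ d i * d i := fun i hi => by
    rcases lt_or_gt_of_ne (hd i hi) with h | h <;> nlinarith
  have hsmall : ∀ i ∈ T, d i * d i = 1 ∨ d i * d i = 4 := by
    intro i hi
    have h1 := Finset.add_sum_erase T (fun m => d m * d m) hi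
    have h2 : ((T.erase i).card : ℤ) ≤ ∑ m ∈ T.erase i, d m * d m := by
      have := Finset.card_nsmul_le_sum (T.erase i) (fun m => d m * d m) 1
        fun m hm => h1le m (Finset.mem_of_mem_erase hm)
      simpa using this
    rw [Finset.card_erase_of_mem hi] at h2
    simp only [hsum] at h1
    have h8 : d i * d i ≤ 8 := by omega
    have hlo : -2 ≤ d i := by nlinarith
    have hhi : d i ≤ 2 := by nlinarith
    have := hd i hi
    obtain e | e | e | e : d i = -2 ∨ d i = -1 ∨ d i = 1 ∨ d i = 2 := by omega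
    all_goals simp [e]
  set E := T.filter (fun i => d i * d i = 4) with hEd
  have heven : ∀ i ∈ E, d i * d i = 4 := fun i hi => (Finset.mem_filter.1 hi).2
  have hone : ∀ i ∈ T, i ∉ E → d i * d i = 1 := fun i hi hiE =>
    (hsmall i hi).resolve_right fun e => hiE (Finset.mem_filter.2 ⟨hi, e⟩)
  have hE : E ⊆ T := Finset.filter_subset _ _
  have hcount : (T.card : ℤ) + 3 * E.card = 16 := by
    rw [← hsum, ← Finset.sum_sdiff hE, Finset.sum_congr rfl fun i hi =>
      hone i (Finset.mem_sdiff.1 hi).1 (Finset.mem_sdiff.1 hi).2,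
      Finset.sum_congr rfl (s₁ := E) heven]
    have := Finset.card_sdiff_add_card_eq_card hE
    simp; omega
  rcases E.eq_empty_or_nonempty with h0 | ⟨c, hc⟩
  · rw [h0, Finset.card_empty] at hcount; omega
  exfalso
  have hcard : E.card ≤ 2 := by omega
  have hdiag : ∀ i ∈ E, U i i = 2 ∧ U' i i = 2 := by
    intro i hi
    obtain ⟨a, b, e⟩ := hpos i (hE hi)
    rw [heven i hi] at a b e
    omega
  obtain ⟨j, hjE, hjne, hEq, hUd, hz⟩ :=
    hU.partner hE hcard heven hone (fun i hi => (hdiag i hi).1) hc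
  obtain ⟨j', hjE', hjne', -, hUd', hz'⟩ :=
    hU'.partner hE hcard heven hone (fun i hi => (hdiag i hi).2) hc
  obtain rfl : j' = j := by
    rw [hEq] at hjE'
    simpa [hjne'] using hjE'
  have h := hprod c (hE hc) c (hE hc)
  rw [← Finset.sum_subset (s₁ := {c, j'}) (fun m hm => by
      simp at hm; rcases hm with rfl | rfl
      · exact hE hc
      · exact hE hjE) (fun m hm hm' => by
      simp at hm'; rw [hz m hm hm'.1 hm'.2, zero_mul]),
    Finset.sum_pair (Ne.symm hjne), (hdiag c hc).1, (hdiag c hc).2, heven c hc,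
    hU'.symm j' (hE hjE) c (hE hc)] at h
  have h' : U c j' * U' c j' * (d j' * d j') = 4 * (d c * d c) := by
    linear_combination (U' c j' * d j') * hUd + (2 * d c) * hUd'
  rw [heven j' hjE, heven c hc] at h'
  linarith

end CfsgLib.Blocks.RankFourNine
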