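import Mathlib.GroupTheory.PGroup
import Mathlib.GroupTheory.GroupAction.Quotient
import Mathlib.GroupTheory.SpecificGroups.Cyclic
import Mathlib.Algebra.Group.End
import Mathlib.Tactic.Group

/-!
# A group of order nine of automorphisms of an elementary abelian group of order sixteen

It has exactly four orbits: those of `1`, `a`, `b` and `a * b`, where `{1} ∪ orbit a` and
`{1} ∪ orbit b` are complementary subgroups and `a * b` has trivial stabiliser.
-/

set_option autoImplicit false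
set_option linter.style.haveILetI false

namespace CfsgLib.Blocks.RankFourNine

open MulAction

/-- A free action makes the order of the group divide the number of points. -/
theorem natCard_dvd_of_free {Γ X : Type*} [Group Γ] [Finite X] [MulAction Γ X]
    (h : ∀ x : X, stabilizer Γ x = ⊥) : Nat.card Γ ∣ Nat.card X := by
  classical
  haveI := Fintype.ofFinite X
  haveI : Fintype (Quotient (orbitRel Γ X)) := Fintype.ofFinite _
  rw [Nat.card_congr (selfEquivSigmaOrbits Γ X), Nat.card_sigma]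
  refine Finset.dvd_sum fun q _ => ?_
  rw [Nat.card_coe_set_eq, ← MulAction.index_stabilizer, h, Subgroup.index_bot]

variable {A : Type*} [CommGroup A] [Finite A] {W : Subgroup (MulAut A)}

/-- The fixed points of an automorphism. -/
def fixPts (w : MulAut A) : Subgroup A where
  carrier := {x | w x = x}
  one_mem' := map_one w
  mul_mem' := fun {x y} (hx : w x = x) (hy : w y = y) => show w (x * y) = x * y by rw [map_mul, hx, hy]
  inv_mem' := fun {x} (hx : w x = x) => show w x⁻¹ = x⁻¹ by rw [map_inv, hx]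

omit [Finite A] in
theorem mem_fixPts {w : MulAut A} {x : A} : x ∈ fixPts w ↔ w x = x := Iff.rfl

theorem dvd_sixteen_cases {f : ℕ} (h : f ∣ 16) : f = 1 ∨ f = 2 ∨ f = 4 ∨ f = 8 ∨ f = 16 := by
  have : f ∈ Nat.divisors 16 := Nat.mem_divisors.2 ⟨h, by norm_num⟩
  rw [show Nat.divisors 16 = {1, 2, 4, 8, 16} by decide] at this
  simpa using this

/-- A group of automorphisms free outside a subgroup. -/
theorem natCard_dvd_sdiff (Γ : Subgroup (MulAut A)) (F : Subgroup A)
    (hF : ∀ γ ∈ Γ, ∀ x : A, x ∉ F → γ x ∉ F)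
    (hfree : ∀ γ ∈ Γ, ∀ x : A, x ∉ F → γ x = x → γ = 1) :
    Nat.card Γ ∣ Nat.card A - Nat.card F := by
  classical
  letI : MulAction Γ {x : A // x ∉ F} :=
    { smul := fun γ x => ⟨(γ : MulAut A) x, hF γ γ.2 x x.2⟩
      one_smul := fun x => Subtype.ext rfl
      mul_smul := fun γ δ x => Subtype.ext rfl }
  have h := natCard_dvd_of_free (Γ := Γ) (X := {x : A // x ∉ F}) fun x => by
    rw [Subgroup.eq_bot_iff_forall]
    intro γ hγ
    exact Subtype.ext (hfree γ γ.2 x x.2 (congrArg Subtype.val hγ))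
  have e : Nat.card {x : A // x ∉ F} = Nat.card A - Nat.card F := by
    haveI := Fintype.ofFinite A
    rw [Nat.card_eq_fintype_card, Fintype.card_subtype_compl]
    simp [Nat.card_eq_fintype_card]
  rwa [e] at h

section

variable (hA : Nat.card A = 16) (hW : Nat.card W = 9)

omit [Finite A] in
include hW in
theorem commute_of_card_nine {v w : MulAut A} (hv : v ∈ W) (hw : w ∈ W) (x : A) :
    v (w x) = w (v x) := by
  haveI : Fact (Nat.Prime 3) := ⟨Nat.prime_three⟩
  have h : v * w = w * v := congrArg Subtype.val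
    ((IsPGroup.isMulCommutative_of_card_eq_prime_sq (p := 3) (G := W)
      (by rw [hW]; norm_num)).is_comm.comm ⟨v, hv⟩ ⟨w, hw⟩)
  exact congrArg (fun γ : MulAut A => γ x) h

include hA hW in
theorem pow_three_eq_one {w : MulAut A} (hw : w ∈ W) : w ^ 3 = 1 := by
  by_contra h3
  have h9 : w ^ 9 = 1 := by
    have := pow_card_eq_one' (G := W) (x := ⟨w, hw⟩)
    rw [hW] at this
    exact congrArg Subtype.val this
  haveI : Fact (Nat.Prime 3) := ⟨Nat.prime_three⟩
  have ho : orderOf w = 9 := orderOf_eq_prime_pow (p := 3) (n := 1) (by simpa using h3) (by simpa using h9)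
  have hdvd := natCard_dvd_sdiff (Subgroup.zpowers w) (fixPts (w ^ 3)) ?_ ?_
  · rw [Nat.card_zpowers, ho, hA] at hdvd
    have hf : Nat.card (fixPts (w ^ 3)) ∣ 16 := hA ▸ Subgroup.card_subgroup_dvd_card _
    rcases dvd_sixteen_cases hf with e | e | e | e | e <;> rw [e] at hdvd <;> try omega
    have htop : fixPts (w ^ 3) = ⊤ := Subgroup.eq_top_of_card_eq _ (e.trans hA.symm)
    exact h3 (MulEquiv.ext fun x => mem_fixPts.1 (htop ▸ Subgroup.mem_top x))
  · intro γ hγ x hx hγx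
    apply hx
    obtain ⟨k, rfl⟩ := Subgroup.mem_zpowers_iff.1 hγ
    rw [mem_fixPts] at hγx ⊢
    apply (w ^ k).injective
    calc (w ^ k) ((w ^ 3) x) = (w ^ k * w ^ 3) x := rfl
      _ = (w ^ 3 * w ^ k) x := by rw [((Commute.refl w).zpow_left k).pow_right 3]
      _ = (w ^ k) x := hγx
  · intro γ hγ x hx hγx
    by_contra hγ1
    apply hx
    obtain ⟨k, rfl⟩ := Subgroup.mem_zpowers_iff.1 hγ
    -- the cube lies in the cyclic subgroup generated by `γ`
    have hsub : w ^ 3 ∈ Subgroup.zpowers (w ^ k) := by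
      have hne : Subgroup.zpowers (w ^ k) ≠ ⊥ := by simpa [Subgroup.zpowers_eq_bot] using hγ1
      obtain ⟨δ, hδ, hδ1⟩ := (Subgroup.bot_or_exists_ne_one _).resolve_left hne
      obtain ⟨m, hm⟩ := Subgroup.mem_zpowers_iff.1 hδ
      have hdiv : orderOf (w ^ k) ∣ 3 ^ 2 := by
        refine orderOf_dvd_of_pow_eq_one ?_
        rw [← zpow_natCast, ← zpow_mul, mul_comm, zpow_mul, zpow_natCast, show (3 : ℕ) ^ 2 = 9 from rfl,
          h9, one_zpow]
      obtain ⟨i, hi, hoi⟩ := (Nat.dvd_prime_pow Nat.prime_three).1 hdiv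
      obtain ⟨n, hn⟩ : ∃ n : ℤ, k * n ≡ 3 [ZMOD 9] := by
        have hk9 : ¬ (9 : ℤ) ∣ k := fun ⟨r, hr⟩ => hγ1 (by rw [hr, zpow_mul, zpow_ofNat, h9, one_zpow])
        have hr := Int.emod_emod_of_dvd k (show (9:ℤ) ∣ 9 from dvd_rfl)
        have h0 : 0 ≤ k % 9 := Int.emod_nonneg _ (by norm_num)
        have h1 : k % 9 < 9 := Int.emod_lt_of_pos _ (by norm_num)
        have hne0 : k % 9 ≠ 0 := fun e => hk9 (Int.dvd_of_emod_eq_zero e)
        have key : ∀ r : ℤ, 0 ≤ r → r < 9 → r ≠ 0 → ∃ n : ℤ, r * n % 9 = 3 := by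
          intro r a b c
          interval_cases r
          · exact absurd rfl c
          all_goals first
            | exact ⟨3, rfl⟩ | exact ⟨6, rfl⟩ | exact ⟨1, rfl⟩ | exact ⟨2, rfl⟩
        obtain ⟨n, hn⟩ := key _ h0 h1 hne0
        exact ⟨n, by rw [Int.ModEq, Int.mul_emod, ← Int.mul_emod]; rw [Int.mul_emod] at hn ⊢; simpa using hn⟩
      refine Subgroup.mem_zpowers_iff.2 ⟨n, ?_⟩
      rw [← zpow_mul, ← zpow_natCast w 3]
      rw [zpow_eq_zpow_iff_modEq, ho]
      exact_mod_cast hn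
    obtain ⟨n, hn⟩ := Subgroup.mem_zpowers_iff.1 hsub
    rw [mem_fixPts, ← hn]
    have : (w ^ k) ∈ stabilizer (MulAut A) x := hγx
    exact Subgroup.zpow_mem _ this n

include hA hW in
theorem card_fixPts {w : MulAut A} (hw : w ∈ W) (hw1 : w ≠ 1) :
    Nat.card (fixPts w) = 1 ∨ Nat.card (fixPts w) = 4 := by
  haveI : Fact (Nat.Prime 3) := ⟨Nat.prime_three⟩
  have ho : orderOf w = 3 := orderOf_eq_prime (pow_three_eq_one hA hW hw) hw1
  have hdvd := natCard_dvd_sdiff (Subgroup.zpowers w) (fixPts w) ?_ ?_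
  · rw [Nat.card_zpowers, ho, hA] at hdvd
    have hf : Nat.card (fixPts w) ∣ 16 := hA ▸ Subgroup.card_subgroup_dvd_card _
    rcases dvd_sixteen_cases hf with e | e | e | e | e <;> rw [e] at hdvd <;> try omega
    have htop : fixPts w = ⊤ := Subgroup.eq_top_of_card_eq _ (e.trans hA.symm)
    exact absurd (MulEquiv.ext fun x => mem_fixPts.1 (htop ▸ Subgroup.mem_top x)) hw1
  · intro γ hγ x hx hγx
    apply hx
    obtain ⟨k, rfl⟩ := Subgroup.mem_zpowers_iff.1 hγ
    rw [mem_fixPts] at hγx ⊢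
    apply (w ^ k).injective
    calc (w ^ k) (w x) = (w ^ k * w) x := rfl
      _ = (w * w ^ k) x := by rw [((Commute.refl w).zpow_left k).eq]
      _ = (w ^ k) x := hγx
  · intro γ hγ x hx hγx
    by_contra hγ1
    apply hx
    have hgen : w ∈ Subgroup.zpowers γ := by
      have hle : Subgroup.zpowers γ ≤ Subgroup.zpowers w := Subgroup.zpowers_le.2 hγ
      have hc : orderOf γ = 3 := by
        rcases (Nat.dvd_prime Nat.prime_three).1 (ho ▸ orderOf_dvd_of_mem_zpowers hγ) with e | e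
        · exact absurd (orderOf_eq_one_iff.1 e) hγ1
        · exact e
      rw [Subgroup.eq_of_le_of_card_ge hle (by rw [Nat.card_zpowers, Nat.card_zpowers, ho, hc])]
      exact Subgroup.mem_zpowers w
    obtain ⟨n, hn⟩ := Subgroup.mem_zpowers_iff.1 hgen
    rw [mem_fixPts, ← hn]
    have : γ ∈ stabilizer (MulAut A) x := hγx
    exact Subgroup.zpow_mem _ this n

/-- The orbit of a point. -/
def orb (W : Subgroup (MulAut A)) (x : A) : Set A := {y | ∃ w ∈ W, w x = y}

omit [Finite A] in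
theorem mem_orb_self (x : A) : x ∈ orb W x := ⟨1, W.one_mem, rfl⟩

omit [Finite A] in
theorem natCard_orb (x : A) :
    Nat.card (orb W x) = (stabilizer W x).index := by
  have e : orb W x = orbit W x := by
    ext y
    exact ⟨fun ⟨w, hw, h⟩ => ⟨⟨w, hw⟩, h⟩, fun ⟨w, h⟩ => ⟨w, w.2, h⟩⟩
  rw [e, Nat.card_coe_set_eq, ← MulAction.index_stabilizer]

set_option maxHeartbeats 1000000 in
include hA hW in
/-- **The four orbits.** -/
theorem exists_four_orbits :
    ∃ a b : A, ∃ Va Vb : Subgroup A, ∃ wa wb : MulAut A,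
      a ≠ 1 ∧ b ≠ 1 ∧ Nat.card Va = 4 ∧ Nat.card Vb = 4 ∧ Va ⊓ Vb = ⊥ ∧
      (∀ x, x ∈ Va ↔ x = 1 ∨ x ∈ orb W a) ∧ (∀ x, x ∈ Vb ↔ x = 1 ∨ x ∈ orb W b) ∧
      (∀ x, x = 1 ∨ x ∈ orb W a ∨ x ∈ orb W b ∨ x ∈ orb W (a * b)) ∧
      (∀ w ∈ W, w (a * b) = a * b → w = 1) ∧
      (∀ w ∈ W, w a = a → ∀ x ∈ Va, w x = x) ∧
      (∀ w ∈ W, w b = b → ∀ x ∈ Vb, w x = x) ∧
      (wa ∈ W ∧ wa a = a ∧ ∀ x ∈ Vb, x ≠ 1 → x = b ∨ x = wa b ∨ x = wa (wa b)) ∧
      (wb ∈ W ∧ wb b = b ∧ ∀ x ∈ Va, x ≠ 1 → x = a ∨ x = wb a ∨ x = wb (wb a)) := by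
  classical
  haveI : Fact (Nat.Prime 3) := ⟨Nat.prime_three⟩
  -- no common fixed point
  have hcommon : ∀ x : A, (∀ w ∈ W, w x = x) → x = 1 := by
    intro x hx
    by_contra hx1
    let Z : Subgroup A := ⨅ w : W, fixPts (w : MulAut A)
    have hxZ : x ∈ Z := Subgroup.mem_iInf.2 fun w => hx w w.2
    obtain ⟨w, hw1⟩ : ∃ w : W, (w : MulAut A) ≠ 1 := by
      haveI : Nontrivial W := Finite.one_lt_card_iff_nontrivial.1 (by rw [hW]; norm_num)
      obtain ⟨w, hw⟩ := exists_ne (1 : W)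
      exact ⟨w, fun e => hw (Subtype.ext e)⟩
    have hfree : ∀ v : W, (v : MulAut A) ≠ 1 → fixPts (v : MulAut A) = Z := by
      intro v hv1
      refine (Subgroup.eq_of_le_of_card_ge (iInf_le (fun w : W => fixPts (w : MulAut A)) v) ?_).symm
      have hge : 4 ≤ Nat.card Z := by
        have hlt : 1 < Nat.card Z := Finite.one_lt_card_iff_nontrivial.2
          ⟨⟨x, hxZ⟩, 1, fun e => hx1 (congrArg Subtype.val e)⟩
        have hmod : Nat.card A ≡ Nat.card Z [MOD 3] := by
          haveI : Fintype A := Fintype.ofFinite A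
          have hp : IsPGroup 3 W := IsPGroup.of_card (n := 2) (by rw [hW]; norm_num)
          have e := hp.card_modEq_card_fixedPoints A
          have ez : (Z : Set A) = fixedPoints W A := by
            ext y
            exact ⟨fun hy v => Subgroup.mem_iInf.1 hy v, fun hy => Subgroup.mem_iInf.2 fun v => hy v⟩
          rw [← ez] at e
          exact e
        have hf : Nat.card Z ∣ 16 := hA ▸ Subgroup.card_subgroup_dvd_card _
        rw [hA] at hmod
        rcases dvd_sixteen_cases hf with e | e | e | e | e <;> rw [e] at hmod hlt ⊢ <;>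
          simp [Nat.ModEq] at hmod <;> omega
      refine le_trans ?_ hge
      rcases card_fixPts hA hW v.2 hv1 with e | e <;> simp [e]
    have h4 : Nat.card Z = 4 := by
      rw [← hfree w hw1]
      refine (card_fixPts hA hW w.2 hw1).resolve_left fun e => ?_
      have := Subgroup.eq_bot_of_card_eq _ e
      have hx' : x ∈ fixPts (w : MulAut A) := hx w w.2
      rw [this, Subgroup.mem_bot] at hx'
      exact hx1 hx'
    have hd := natCard_dvd_sdiff W Z (fun γ hγ y hy hγy => hy (Subgroup.mem_iInf.2 fun v =>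
      γ.injective (by rw [← commute_of_card_nine hW v.2 hγ]; exact Subgroup.mem_iInf.1 hγy v)))
      (fun γ hγ y hy hγy => by
        by_contra h1
        exact hy (hfree ⟨γ, hγ⟩ h1 ▸ hγy))
    rw [hW, hA, h4] at hd
    omega
  -- a point with nontrivial stabiliser outside a subgroup of order at most four
  have hexists : ∀ F : Subgroup A, (Nat.card F = 1 ∨ Nat.card F = 4) →
      (∀ γ ∈ W, ∀ x : A, x ∉ F → γ x ∉ F) →
      ∃ x ∉ F, ∃ w ∈ W, w ≠ 1 ∧ w x = x := by
    intro F hF hstab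
    by_contra hcon
    push Not at hcon
    have hd := natCard_dvd_sdiff W F hstab
      fun γ hγ x hx hγx => by_contra fun h1 => hcon x hx γ hγ h1 hγx
    rw [hW, hA] at hd
    omega
  have hinv : ∀ v : MulAut A, v ∈ W → ∀ γ ∈ W, ∀ x : A, x ∉ fixPts v → γ x ∉ fixPts v :=
    fun v hv γ hγ x hx h => hx (γ.injective (by rw [← commute_of_card_nine hW hv hγ]; exact h))
  obtain ⟨a, ha, wa, hwa, hwa1, hwaa⟩ := hexists ⊥ (Or.inl Subgroup.card_bot)
    (fun γ _ x hx h => hx (by simpa using h))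
  have ha1 : a ≠ 1 := fun e => ha (e ▸ Subgroup.one_mem _)
  have hVa : Nat.card (fixPts wa) = 4 := (card_fixPts hA hW hwa hwa1).resolve_left fun e =>
    ha1 (Subgroup.mem_bot.1 (Subgroup.eq_bot_of_card_eq _ e ▸ (hwaa : a ∈ fixPts wa)))
  obtain ⟨b, hb, wb, hwb, hwb1, hwbb⟩ := hexists (fixPts wa) (Or.inr hVa) (hinv wa hwa)
  have hb1 : b ≠ 1 := fun e => hb (e ▸ Subgroup.one_mem _)
  have hVb : Nat.card (fixPts wb) = 4 := (card_fixPts hA hW hwb hwb1).resolve_left fun e =>
    hb1 (Subgroup.mem_bot.1 (Subgroup.eq_bot_of_card_eq _ e ▸ (hwbb : b ∈ fixPts wb)))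
  -- a cyclic part is its own stabiliser
  have hstab : ∀ v : MulAut A, v ∈ W → v ≠ 1 → ∀ c : A, v c = c → c ≠ 1 → ∀ γ : W,
      γ ∈ stabilizer W c ↔ (γ : MulAut A) ∈ Subgroup.zpowers v := by
    intro v hv hv1 c hvc hc1 γ
    have hov : orderOf v = 3 := orderOf_eq_prime (pow_three_eq_one hA hW hv) hv1
    set S := (stabilizer W c).map W.subtype with hS
    have hvS : Subgroup.zpowers v ≤ S := Subgroup.zpowers_le.2 ⟨⟨v, hv⟩, hvc, rfl⟩
    have hSne : S ≠ W := fun e => hc1 (hcommon c fun w hw => by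
      rw [← e] at hw
      obtain ⟨δ, hδ, rfl⟩ := hw
      exact hδ)
    have hSW : S ≤ W := Subgroup.map_subtype_le _
    have hdvd : Nat.card S ∣ 3 ^ 2 := by
      rw [show (3 : ℕ) ^ 2 = Nat.card W by rw [hW]; norm_num]
      exact Subgroup.card_dvd_of_le hSW
    obtain ⟨i, hi, hSc⟩ := (Nat.dvd_prime_pow Nat.prime_three).1 hdvd
    have hi2 : i ≠ 2 := fun e => hSne (Subgroup.eq_of_le_of_card_ge hSW (by rw [hSc, e, hW]; norm_num))
    have h3 : 3 ≤ Nat.card S := hov ▸ Nat.card_zpowers v ▸ Subgroup.card_le_of_le hvS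
    have heq : Subgroup.zpowers v = S := Subgroup.eq_of_le_of_card_ge hvS (by
      rw [Nat.card_zpowers, hov, hSc]
      calc 3 ^ i ≤ 3 ^ 1 := Nat.pow_le_pow_right (by norm_num) (by omega)
        _ = 3 := pow_one 3)
    rw [heq, hS]
    constructor
    · exact fun h => ⟨γ, h, rfl⟩
    · rintro ⟨δ, hδ, e⟩
      have : δ = γ := Subtype.ext e
      exact this ▸ hδ
  have horb3 : ∀ v : MulAut A, v ∈ W → v ≠ 1 → ∀ c : A, v c = c → c ≠ 1 →
      Nat.card (fixPts v) = 4 → ∀ x, x ∈ fixPts v ↔ x = 1 ∨ x ∈ orb W c := by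
    intro v hv hv1 c hvc hc1 h4
    have hov : orderOf v = 3 := orderOf_eq_prime (pow_three_eq_one hA hW hv) hv1
    have h3 : Nat.card (orb W c) = 3 := by
      have h1 := (stabilizer W c).card_mul_index
      have hS : Nat.card (stabilizer W c) = 3 := by
        rw [← hov, ← Nat.card_zpowers]
        refine Nat.card_congr ⟨fun γ => ⟨_, (hstab v hv hv1 c hvc hc1 γ).1 γ.2⟩,
          fun δ => ⟨⟨δ, Subgroup.zpowers_le.2 hv δ.2⟩, (hstab v hv hv1 c hvc hc1 _).2 δ.2⟩,
          fun _ => rfl, fun _ => rfl⟩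
      rw [hW, hS] at h1
      rw [natCard_orb]
      omega
    have hsub : insert 1 (orb W c) ⊆ (fixPts v : Set A) := by
      rintro x (rfl | ⟨γ, hγ, rfl⟩)
      · exact Subgroup.one_mem _
      · show v (γ c) = γ c
        rw [commute_of_card_nine hW hv hγ, hvc]
    have heq : insert 1 (orb W c) = (fixPts v : Set A) := by
      refine Set.eq_of_subset_of_ncard_le hsub (le_of_eq ?_) (Set.toFinite _)
      have hn1 : (1 : A) ∉ orb W c := fun ⟨γ, _, h⟩ => hc1 (γ.injective (h.trans (map_one γ).symm))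
      rw [Set.ncard_insert_of_notMem hn1 (Set.toFinite _), ← Nat.card_coe_set_eq,
        ← Nat.card_coe_set_eq, h3]
      exact h4
    intro x
    rw [← SetLike.mem_coe, ← heq, Set.mem_insert_iff]
  have ha' := horb3 wa hwa hwa1 a hwaa ha1 hVa
  have hb' := horb3 wb hwb hwb1 b hwbb hb1 hVb
  have hmeet : fixPts wa ⊓ fixPts wb = ⊥ := by
    rw [Subgroup.eq_bot_iff_forall]
    intro x hx
    by_contra hx1
    apply hb
    -- then `wb` fixes `a`, so both subgroups agree
    rcases (hb' x).1 hx.2 with e | ⟨γ, hγ, e⟩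
    · exact absurd e hx1
    · have hxa : γ b ∈ fixPts wa := e ▸ hx.1
      by_contra hbn
      exact hinv wa hwa γ hγ b hbn hxa
  have hwbaa : ∀ w ∈ W, w a = a → w b = b → w = 1 := by
    intro w hw hwa' hwb'
    have h1 := (hstab wa hwa hwa1 a hwaa ha1 ⟨w, hw⟩).1 hwa'
    by_contra hw1
    apply hb
    have hgen : wa ∈ Subgroup.zpowers w := by
      have hle : Subgroup.zpowers w ≤ Subgroup.zpowers wa := Subgroup.zpowers_le.2 h1
      rw [Subgroup.eq_of_le_of_card_ge hle (by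
        rw [Nat.card_zpowers, Nat.card_zpowers, orderOf_eq_prime (pow_three_eq_one hA hW hwa) hwa1,
          orderOf_eq_prime (pow_three_eq_one hA hW hw) hw1])]
      exact Subgroup.mem_zpowers wa
    obtain ⟨n, hn⟩ := Subgroup.mem_zpowers_iff.1 hgen
    rw [mem_fixPts, ← hn]
    have : w ∈ stabilizer (MulAut A) b := hwb'
    exact Subgroup.zpow_mem _ this n
  have habfree : ∀ w ∈ W, w (a * b) = a * b → w = 1 := by
    intro w hw h
    rw [map_mul] at h
    have h1 : a⁻¹ * w a ∈ fixPts wa := Subgroup.mul_mem _ (Subgroup.inv_mem _ hwaa)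
      ((ha' _).2 (Or.inr ⟨w, hw, rfl⟩))
    have h2 : b * (w b)⁻¹ ∈ fixPts wb := Subgroup.mul_mem _ hwbb
      (Subgroup.inv_mem _ ((hb' _).2 (Or.inr ⟨w, hw, rfl⟩)))
    have e : a⁻¹ * w a = b * (w b)⁻¹ := by
      rw [eq_mul_inv_iff_mul_eq, mul_assoc, h, inv_mul_cancel_left]
    have h3 : a⁻¹ * w a ∈ fixPts wa ⊓ fixPts wb := ⟨h1, e ▸ h2⟩
    rw [hmeet, Subgroup.mem_bot] at h3
    exact hwbaa w hw (inv_mul_eq_one.1 h3).symm
      (mul_inv_eq_one.1 (e ▸ h3)).symm
  have hcover : ∀ x, x = 1 ∨ x ∈ orb W a ∨ x ∈ orb W b ∨ x ∈ orb W (a * b) := by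
    have hab : ∀ γ ∈ W, γ (a * b) ∉ (fixPts wa : Set A) ∧ γ (a * b) ∉ (fixPts wb : Set A) := by
      intro γ hγ
      refine ⟨hinv wa hwa γ hγ _ ?_, hinv wb hwb γ hγ _ ?_⟩
      · intro h; exact hb ((Subgroup.mul_mem_cancel_left _ hwaa).1 h)
      · intro h
        have : a ∈ fixPts wa ⊓ fixPts wb := ⟨hwaa, (Subgroup.mul_mem_cancel_right _ hwbb).1 h⟩
        rw [hmeet, Subgroup.mem_bot] at this
        exact ha1 this
    have h9 : (orb W (a * b)).ncard = 9 := by
      rw [← Nat.card_coe_set_eq, natCard_orb, show stabilizer W (a * b) = ⊥ from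
        (Subgroup.eq_bot_iff_forall _).2 fun γ hγ => Subtype.ext (habfree γ γ.2 hγ),
        Subgroup.index_bot, hW]
    have hU : ((fixPts wa : Set A) ∪ fixPts wb).ncard = 7 := by
      have h := Set.ncard_union_add_ncard_inter (fixPts wa : Set A) (fixPts wb : Set A)
      have e1 : (fixPts wa : Set A).ncard = 4 := (Nat.card_coe_set_eq _).symm.trans hVa
      have e2 : (fixPts wb : Set A).ncard = 4 := (Nat.card_coe_set_eq _).symm.trans hVb
      rw [← Subgroup.coe_inf, hmeet, Subgroup.coe_bot, Set.ncard_singleton, e1, e2] at h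
      omega
    have hdis : Disjoint ((fixPts wa : Set A) ∪ fixPts wb) (orb W (a * b)) := by
      rw [Set.disjoint_left]
      rintro x hx ⟨γ, hγ, rfl⟩
      rcases hx with h | h
      · exact (hab γ hγ).1 h
      · exact (hab γ hγ).2 h
    have hall : (fixPts wa : Set A) ∪ fixPts wb ∪ orb W (a * b) = Set.univ := by
      refine Set.eq_of_subset_of_ncard_le (Set.subset_univ _) ?_ (Set.toFinite _)
      rw [Set.ncard_univ, hA, Set.ncard_union_eq hdis, hU, h9]
    intro x
    have hx : x ∈ (fixPts wa : Set A) ∪ fixPts wb ∪ orb W (a * b) := hall ▸ Set.mem_univ x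
    rcases hx with (h | h) | h
    · rcases (ha' x).1 h with e | e
      · exact Or.inl e
      · exact Or.inr (Or.inl e)
    · rcases (hb' x).1 h with e | e
      · exact Or.inl e
      · exact Or.inr (Or.inr (Or.inl e))
    · exact Or.inr (Or.inr (Or.inr h))
  have hfixV : ∀ v c, (∀ x, x ∈ fixPts v ↔ x = 1 ∨ x ∈ orb W c) → ∀ w ∈ W, w c = c →
      ∀ x ∈ fixPts v, w x = x := by
    intro v c hvc w hw hwc x hx
    rcases (hvc x).1 hx with rfl | ⟨γ, hγ, rfl⟩
    · exact map_one w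
    · rw [commute_of_card_nine hW hw hγ, hwc]
  have htrans : ∀ (v : MulAut A), v ∈ W → v ≠ 1 → ∀ c : A, c ≠ 1 →
      v c ≠ c → ∀ U : Subgroup A, Nat.card U = 4 → c ∈ U → v c ∈ U → v (v c) ∈ U →
      ∀ x ∈ U, x ≠ 1 → x = c ∨ x = v c ∨ x = v (v c) := by
    intro v hv hv1 c hc hvc U hU4 hcU h1 h2 x hx hx1
    have h3 : v (v (v c)) = c := by
      have := congrArg (fun γ : MulAut A => γ c) (pow_three_eq_one hA hW hv)
      simpa [pow_succ, pow_zero] using this
    have hne1 : v c ≠ 1 := fun e => hc (v.injective (e.trans (map_one v).symm))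
    have hne2 : v (v c) ≠ 1 := fun e => hne1 (v.injective (e.trans (map_one v).symm))
    have hne3 : v (v c) ≠ c := fun e => hvc (by
      have := congrArg v e
      rw [h3] at this
      exact this.symm)
    have hne4 : v (v c) ≠ v c := fun e => hvc (v.injective e)
    have heq : ({1, c, v c, v (v c)} : Set A) = (U : Set A) := by
      refine Set.eq_of_subset_of_ncard_le ?_ (le_of_eq ?_) (Set.toFinite _)
      · rintro z (rfl | rfl | rfl | rfl)
        · exact U.one_mem
        all_goals assumption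
      · rw [← Nat.card_coe_set_eq (U : Set A)]
        rw [Set.ncard_insert_of_notMem (by simp [Ne.symm hc, Ne.symm hne1, Ne.symm hne2]) (Set.toFinite _),
          Set.ncard_insert_of_notMem (by simp [Ne.symm hvc, Ne.symm hne3]) (Set.toFinite _),
          Set.ncard_pair (Ne.symm hne4)]
        exact hU4
    have := heq.ge hx
    simpa [hx1] using this
  refine ⟨a, b, fixPts wa, fixPts wb, wa, wb, ha1, hb1, hVa, hVb, hmeet, ha', hb', hcover, habfree,
    hfixV wa a ha', hfixV wb b hb', ⟨hwa, hwaa, ?_⟩, ⟨hwb, hwbb, ?_⟩⟩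
  · exact htrans wa hwa hwa1 b hb1 hb _ hVb hwbb
      ((hb' _).2 (Or.inr ⟨wa, hwa, rfl⟩))
      ((hb' _).2 (Or.inr ⟨wa * wa, W.mul_mem hwa hwa, rfl⟩))
  · exact htrans wb hwb hwb1 a ha1 (fun e => hwb1 (hwbaa wb hwb e hwbb)) _ hVa hwaa
      ((ha' _).2 (Or.inr ⟨wb, hwb, rfl⟩))
      ((ha' _).2 (Or.inr ⟨wb * wb, W.mul_mem hwb hwb, rfl⟩))

end

end CfsgLib.Blocks.RankFourNine
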