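import Mathlib.GroupTheory.Sylow
import Mathlib.GroupTheory.Subgroup.Centralizer
import Cfsg.Agent.Blocks.RankFourNine.Orbits

/-!
# The fusion in an elementary abelian Sylow subgroup of order sixteen with index nine
-/

set_option autoImplicit false
set_option linter.style.haveILetI false

namespace CfsgLib.Blocks.RankFourNine

universe u

variable {G : Type u} [Group G] [Finite G]

/-- The four classes of `2`-elements `1`, `a`, `b`, `a * b`. -/
structure Setting (P : Sylow 2 G) where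
  a : G
  b : G
  Va : Subgroup G
  Vb : Subgroup G
  aP : a ∈ (P : Subgroup G)
  bP : b ∈ (P : Subgroup G)
  oa : orderOf a = 2
  ob : orderOf b = 2
  oab : orderOf (a * b) = 2
  leA : Va ≤ (P : Subgroup G)
  leB : Vb ≤ (P : Subgroup G)
  cardA : Nat.card Va = 4
  cardB : Nat.card Vb = 4
  inf : Va ⊓ Vb = ⊥
  aVa : a ∈ Va
  bVb : b ∈ Vb
  conjA : ∀ x ∈ (P : Subgroup G), (IsConj a x ↔ x ∈ Va ∧ x ≠ 1)
  conjB : ∀ x ∈ (P : Subgroup G), (IsConj b x ↔ x ∈ Vb ∧ x ≠ 1)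
  conjAB : ∀ x ∈ (P : Subgroup G), (IsConj (a * b) x ↔ x ∉ Va ∧ x ∉ Vb)
  fixA : ∀ n ∈ Subgroup.normalizer ((P : Subgroup G) : Set G), Commute n a →
    ∀ v ∈ Va, n * v * n⁻¹ = v
  fixB : ∀ n ∈ Subgroup.normalizer ((P : Subgroup G) : Set G), Commute n b →
    ∀ v ∈ Vb, n * v * n⁻¹ = v
  freeAB : ∀ n ∈ Subgroup.normalizer ((P : Subgroup G) : Set G), Commute n (a * b) →
    n ∈ Subgroup.centralizer ((P : Subgroup G) : Set G)
  transA : ∀ x ∈ (P : Subgroup G), ∀ y ∈ (P : Subgroup G), x ∉ Va → y ∉ Va →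
    ∃ n ∈ Subgroup.normalizer ((P : Subgroup G) : Set G), Commute n a ∧ (n * x * n⁻¹)⁻¹ * y ∈ Va
  transB : ∀ x ∈ (P : Subgroup G), ∀ y ∈ (P : Subgroup G), x ∉ Vb → y ∉ Vb →
    ∃ n ∈ Subgroup.normalizer ((P : Subgroup G) : Set G), Commute n b ∧ (n * x * n⁻¹)⁻¹ * y ∈ Vb

variable {P : Sylow 2 G}

set_option maxHeartbeats 1000000 in
theorem exists_setting (hcard : Nat.card P = 16) (hel : ∀ x : P, x ^ 2 = 1)
    (he : (Subgroup.centralizer ((P : Subgroup G) : Set G)).relIndex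
      (Subgroup.normalizer ((P : Subgroup G) : Set G)) = 9) : Nonempty (Setting P) := by
  classical
  haveI : Fact (Nat.Prime 2) := ⟨Nat.prime_two⟩
  let A := (P : Subgroup G)
  have hcomm : ∀ x y : A, x * y = y * x := fun x y =>
    (Commute.of_orderOf_dvd_two (fun c : A => orderOf_dvd_of_pow_eq_one (hel c)) x y)
  letI : CommGroup A := { (inferInstance : Group A) with mul_comm := hcomm }
  haveI : IsMulCommutative (P : Subgroup G) := ⟨⟨hcomm⟩⟩
  set φ := A.normalizerMonoidHom with hφd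
  have hφ : ∀ (n : Subgroup.normalizer (A : Set G)) (x : A),
      ((φ n x : A) : G) = (n : G) * x * (n : G)⁻¹ := fun n x => rfl
  set W := φ.range with hWd
  have hW : Nat.card W = 9 := by
    rw [← Subgroup.index_ker φ, hφd, Subgroup.normalizerMonoidHom_ker]
    exact he
  obtain ⟨a, b, Va, Vb, wa, wb, ha1, hb1, hVa, hVb, hinf, hA', hB', hcov, hfree, hfixa, hfixb,
    ⟨hwa, hwaa, hwat⟩, ⟨hwb, hwbb, hwbt⟩⟩ := exists_four_orbits (A := A) hcard hW
  have hconj : ∀ (u x : A), IsConj (u : G) (x : G) ↔ x ∈ orb W u := by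
    intro u x
    constructor
    · intro h
      obtain ⟨g, hg⟩ := isConj_iff.1 h
      obtain ⟨n, hn, e⟩ := Sylow.conj_eq_normalizer_conj_of_mem P (u : G) g⁻¹ u.2 (by
        rw [inv_inv, hg]; exact x.2)
      rw [inv_inv, hg] at e
      refine ⟨φ ⟨n⁻¹, inv_mem hn⟩, ⟨_, rfl⟩, Subtype.ext ?_⟩
      rw [hφ]
      simpa using e.symm
    · rintro ⟨w, ⟨n, rfl⟩, rfl⟩
      exact isConj_iff.2 ⟨n, (hφ n u).symm⟩
  have hone : ∀ u : A, u ≠ 1 → (1 : A) ∉ orb W u := fun u hu ⟨w, _, h⟩ =>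
    hu (w.injective (h.trans (map_one w).symm))
  have hcom : ∀ (n : Subgroup.normalizer (A : Set G)) (u : A), φ n u = u ↔ Commute (n : G) (u : G) := by
    intro n u
    rw [Subtype.ext_iff, hφ]
    exact mul_inv_eq_iff_eq_mul
  have hdis : ∀ x : A, x ∈ Va → x ∈ Vb → x = 1 := fun x h1 h2 => by
    have : x ∈ Va ⊓ Vb := ⟨h1, h2⟩
    rw [hinf, Subgroup.mem_bot] at this
    exact this
  have haVa : a ∈ Va := (hA' a).2 (Or.inr (mem_orb_self a))
  have hbVb : b ∈ Vb := (hB' b).2 (Or.inr (mem_orb_self b))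
  have hinvA : ∀ w ∈ W, ∀ x ∈ Va, w x ∈ Va := by
    intro w hw x hx
    rcases (hA' x).1 hx with rfl | ⟨v, hv, rfl⟩
    · rw [map_one]; exact Va.one_mem
    · exact (hA' _).2 (Or.inr ⟨w * v, mul_mem hw hv, rfl⟩)
  have hinvB : ∀ w ∈ W, ∀ x ∈ Vb, w x ∈ Vb := by
    intro w hw x hx
    rcases (hB' x).1 hx with rfl | ⟨v, hv, rfl⟩
    · rw [map_one]; exact Vb.one_mem
    · exact (hB' _).2 (Or.inr ⟨w * v, mul_mem hw hv, rfl⟩)
  have habA : ∀ w ∈ W, w (a * b) ∉ Va := fun w hw h => hb1 (w.injective (by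
    rw [map_one]
    refine hdis _ ?_ (hinvB w hw b hbVb)
    rw [map_mul] at h
    exact (Subgroup.mul_mem_cancel_left _ (hinvA w hw a haVa)).1 h))
  have habB : ∀ w ∈ W, w (a * b) ∉ Vb := fun w hw h => ha1 (w.injective (by
    rw [map_one]
    refine hdis _ (hinvA w hw a haVa) ?_
    rw [map_mul] at h
    exact (Subgroup.mul_mem_cancel_right _ (hinvB w hw b hbVb)).1 h))
  have hab1 : a * b ≠ 1 := fun e => habA 1 W.one_mem (by simp [e])
  have hord : ∀ u : A, u ≠ 1 → orderOf (u : G) = 2 := fun u hu => by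
    rw [Subgroup.orderOf_coe]
    exact orderOf_eq_prime (hel u) hu
  have hmap : ∀ (V : Subgroup A) (x : A), (x : G) ∈ V.map A.subtype ↔ x ∈ V := fun V x =>
    ⟨fun ⟨y, hy, e⟩ => (Subtype.ext e : y = x) ▸ hy, fun h => ⟨x, h, rfl⟩⟩
  -- transitivity on the cosets of one of the two subgroups
  have htr : ∀ (a b : A) (Va Vb : Subgroup A) (wa : MulAut A), a ∈ Va → wa ∈ W → wa a = a →
      (∀ w ∈ W, w a = a → ∀ x ∈ Va, w x = x) →
      (∀ x ∈ Vb, x ≠ 1 → x = b ∨ x = wa b ∨ x = wa (wa b)) →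
      (∀ x : A, x ∉ Va → ∃ v ∈ Va, ∃ u ∈ Vb, u ≠ 1 ∧ x = v * u) →
      ∀ x y : A, x ∉ Va → y ∉ Va → ∃ n : Subgroup.normalizer (A : Set G),
        φ n a = a ∧ (φ n x)⁻¹ * y ∈ Va := by
    intro a b Va Vb wa haVa hwa hwaa hfix ht hdec x y hx hy
    obtain ⟨v, hv, u, hu, hu1, rfl⟩ := hdec x hx
    obtain ⟨v', hv', u', hu', hu1', rfl⟩ := hdec y hy
    have hstab : ∀ k : ℤ, (wa ^ k) a = a := fun k =>
      Subgroup.zpow_mem (MulAction.stabilizer (MulAut A) a) hwaa k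
    have hk : ∀ z ∈ Vb, z ≠ 1 → ∃ k : ℤ, (wa ^ k) b = z := by
      intro z hz hz1
      rcases ht z hz hz1 with rfl | rfl | rfl
      · exact ⟨0, rfl⟩
      · exact ⟨1, by rw [zpow_one]⟩
      · exact ⟨2, by rw [zpow_two]; rfl⟩
    obtain ⟨i, rfl⟩ := hk u hu hu1
    obtain ⟨j, rfl⟩ := hk u' hu' hu1'
    obtain ⟨n, hn⟩ := Subgroup.zpow_mem W hwa (j - i)
    refine ⟨n, by rw [hn]; exact hstab _, ?_⟩
    have hu2 : (wa ^ (j - i)) ((wa ^ i) b) = (wa ^ j) b := by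
      rw [← MulAut.mul_apply, ← zpow_add, sub_add_cancel]
    rw [hn, map_mul, hfix _ (Subgroup.zpow_mem W hwa _) (hstab _) v hv, hu2]
    have e : ((v * (wa ^ j) b)⁻¹ * (v' * (wa ^ j) b)) = v⁻¹ * v' := by
      rw [mul_inv_rev, mul_comm ((wa ^ j) b)⁻¹, mul_comm v', mul_assoc, inv_mul_cancel_left]
    rw [e]
    exact mul_mem (inv_mem hv) hv'
  have hdecA : ∀ x : A, x ∉ Va → ∃ v ∈ Va, ∃ u ∈ Vb, u ≠ 1 ∧ x = v * u := by
    intro x hx
    have hx1 : x ≠ 1 := fun e => hx (e ▸ Va.one_mem)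
    rcases hcov x with h | h | h | ⟨w, hw, h⟩
    · exact absurd h hx1
    · exact absurd ((hA' x).2 (Or.inr h)) hx
    · exact ⟨1, Va.one_mem, x, (hB' x).2 (Or.inr h), hx1, (one_mul x).symm⟩
    · exact ⟨w a, hinvA w hw a haVa, w b, hinvB w hw b hbVb,
        fun e => hb1 (w.injective (e.trans (map_one w).symm)), by rw [← h, map_mul]⟩
  have hdecB : ∀ x : A, x ∉ Vb → ∃ v ∈ Vb, ∃ u ∈ Va, u ≠ 1 ∧ x = v * u := by
    intro x hx
    have hx1 : x ≠ 1 := fun e => hx (e ▸ Vb.one_mem)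
    rcases hcov x with h | h | h | ⟨w, hw, h⟩
    · exact absurd h hx1
    · exact ⟨1, Vb.one_mem, x, (hA' x).2 (Or.inr h), hx1, (one_mul x).symm⟩
    · exact absurd ((hB' x).2 (Or.inr h)) hx
    · exact ⟨w b, hinvB w hw b hbVb, w a, hinvA w hw a haVa,
        fun e => ha1 (w.injective (e.trans (map_one w).symm)), by rw [← h, map_mul, mul_comm]⟩
  refine ⟨{
    a := a
    b := b
    Va := Va.map A.subtype
    Vb := Vb.map A.subtype
    aP := a.2
    bP := b.2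
    oa := hord a ha1
    ob := hord b hb1
    oab := by rw [← Subgroup.coe_mul]; exact hord _ hab1
    leA := Subgroup.map_subtype_le Va
    leB := Subgroup.map_subtype_le Vb
    cardA := by rw [Subgroup.card_map_of_injective A.subtype_injective, hVa]
    cardB := by rw [Subgroup.card_map_of_injective A.subtype_injective, hVb]
    inf := by rw [← Subgroup.map_inf _ _ _ A.subtype_injective, hinf, Subgroup.map_bot]
    aVa := (hmap Va a).2 haVa
    bVb := (hmap Vb b).2 hbVb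
    conjA := ?_, conjB := ?_, conjAB := ?_, fixA := ?_, fixB := ?_, freeAB := ?_,
    transA := ?_, transB := ?_ }⟩
  · intro x hx
    lift x to A using hx
    rw [hconj, hmap, hA']
    exact ⟨fun h => ⟨Or.inr h, fun e => hone a ha1 ((Subtype.ext e : x = 1) ▸ h)⟩,
      fun ⟨h, h1⟩ => h.resolve_left fun e => h1 (by rw [e]; rfl)⟩
  · intro x hx
    lift x to A using hx
    rw [hconj, hmap, hB']
    exact ⟨fun h => ⟨Or.inr h, fun e => hone b hb1 ((Subtype.ext e : x = 1) ▸ h)⟩,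
      fun ⟨h, h1⟩ => h.resolve_left fun e => h1 (by rw [e]; rfl)⟩
  · intro x hx
    lift x to A using hx
    rw [← Subgroup.coe_mul, hconj, hmap, hmap]
    constructor
    · rintro ⟨w, hw, rfl⟩
      exact ⟨habA w hw, habB w hw⟩
    · rintro ⟨h1, h2⟩
      rcases hcov x with h | h | h | h
      · exact absurd (h ▸ Va.one_mem) h1
      · exact absurd ((hA' x).2 (Or.inr h)) h1
      · exact absurd ((hB' x).2 (Or.inr h)) h2
      · exact h
  · rintro n hn hna _ ⟨v, hv, rfl⟩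
    have h := hfixa _ ⟨⟨n, hn⟩, rfl⟩ ((hcom ⟨n, hn⟩ a).2 hna) v hv
    exact congrArg Subtype.val h
  · rintro n hn hnb _ ⟨v, hv, rfl⟩
    have h := hfixb _ ⟨⟨n, hn⟩, rfl⟩ ((hcom ⟨n, hn⟩ b).2 hnb) v hv
    exact congrArg Subtype.val h
  · intro n hn hnab
    have h : φ ⟨n, hn⟩ = 1 := hfree _ ⟨⟨n, hn⟩, rfl⟩ ((hcom ⟨n, hn⟩ (a * b)).2 hnab)
    have h' : (⟨n, hn⟩ : Subgroup.normalizer (A : Set G)) ∈ φ.ker := h
    rwa [hφd, Subgroup.normalizerMonoidHom_ker, Subgroup.mem_subgroupOf] at h'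
  · intro x hx y hy
    lift x to A using hx
    lift y to A using hy
    rw [hmap, hmap]
    intro h1 h2
    obtain ⟨n, hn, h⟩ := htr a b Va Vb wa haVa hwa hwaa hfixa hwat hdecA x y h1 h2
    exact ⟨n, n.2, (hcom n a).1 hn, (hmap Va _).2 h⟩
  · intro x hx y hy
    lift x to A using hx
    lift y to A using hy
    rw [hmap, hmap]
    intro h1 h2
    obtain ⟨n, hn, h⟩ := htr b a Vb Va wb hbVb hwb hwbb hfixb hwbt hdecB x y h1 h2
    exact ⟨n, n.2, (hcom n b).1 hn, (hmap Vb _).2 h⟩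

end CfsgLib.Blocks.RankFourNine
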